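import Mathlib
import Cfsg.Agent.S0956
import Cfsg.Agent.S0955
import Cfsg.Agent.S0953
import Cfsg.Agent.S0914
import Cfsg.Agent.H11.Defect5
import Cfsg.Agent.S4652
import Cfsg.Agent.L.KLoc

set_option autoImplicit false

/-! Counting the blocks of a group in which only the centre commutes with radical p-subgroups. -/

namespace Cfsg.Agent.LSt

open Cfsg Cfsg.Agent.H11
open scoped Pointwise

variable {G : Type*} [Group G] [Finite G] {p : ℕ} [Fact p.Prime] {M : Ideal AlgInt}

/-- `p`-regular elements centralising a non-trivial radical `p`-subgroup are central. -/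
def Cen (p : ℕ) (G : Type*) [Group G] : Prop := ∀ D : Subgroup G, IsPGroup p D → D ≠ ⊥ →
  (Cfsg.pCore p (Subgroup.normalizer (D : Set G))).map (Subgroup.normalizer (D : Set G)).subtype = D →
  ∀ x ∈ Subgroup.centralizer (D : Set G), ¬ p ∣ orderOf x → x ∈ Subgroup.center G

theorem defect_full (hM : IsPModular p M) (hc : Cen p G) {B : Set (IrrCharacter G)} (hB : IsPBlock M B)
    {D : Subgroup G} (hD : IsDefectGroup p M B D) (hne : D ≠ ⊥) (P : Sylow p G) (hDP : D ≤ P) : D = P := by
  haveI : Fintype G := Fintype.ofFinite _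
  obtain ⟨x, hx, ⟨S, hS⟩, h⟩ := Cfsg.Agent.S0956.result p M hM B hB D hD P hDP
  have hxc : x ∈ Subgroup.centralizer (D : Set G) := by
    rw [Subgroup.mem_centralizer_iff]
    intro d hd
    have hd' : d ∈ D := hd
    rw [← hS] at hd'
    obtain ⟨y, -, rfl⟩ := hd'
    exact Subgroup.mem_centralizer_singleton_iff.1 y.2
  have hz := hc D (IsDefectGroup.isPGroup hM hD) hne (Cfsg.Agent.S0955.result p M hM B hB D hD) x hxc hx
  rw [← h]
  have : (P : Subgroup G).map (MulAut.conj x).toMonoidHom = P := by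
    ext y
    rw [Subgroup.mem_map]
    constructor
    · rintro ⟨z, hz1, rfl⟩
      have : (MulAut.conj x).toMonoidHom z = z := by
        show x * z * x⁻¹ = z
        rw [(Subgroup.mem_center_iff.1 hz z).symm, mul_inv_cancel_right]
      rw [this]; exact hz1
    · intro hy
      refine ⟨y, hy, ?_⟩
      show x * y * x⁻¹ = y
      rw [(Subgroup.mem_center_iff.1 hz y).symm, mul_inv_cancel_right]
  rw [this, inf_idem]

/-- a block with trivial defect group is a defect zero block -/
lemma zero_of_bot (hM : IsPModular p M) (χ : IrrCharacter G)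
    (hD : IsDefectGroup p M (blockOf M (χ : G → ℂ)) ⊥) : ¬ p ∣ Nat.card G / charDegree (χ : G → ℂ) := by
  haveI : Fintype G := Fintype.ofFinite _
  have hpr := hM.2.1.isPrime
  have h1 := card_defect hM ⟨χ, rfl⟩ hD
  rw [Subgroup.card_bot] at h1
  have h2 : blockDefect p (blockOf M (χ : G → ℂ)) = 0 := by
    by_contra h
    have := Nat.one_lt_pow h (Fact.out : p.Prime).one_lt
    omega
  unfold blockDefect at h2
  have h3 : sInf ((fun χ : IrrCharacter G => (charDegree (χ : G → ℂ)).factorization p) '' (blockOf M (χ : G → ℂ))) ≤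
      (charDegree (χ : G → ℂ)).factorization p := Nat.sInf_le ⟨χ, mem_blockOf_self χ, rfl⟩
  obtain ⟨h4, h5⟩ := charDegree_spec χ.2
  intro hdvd
  obtain ⟨n, hn, h6, h7⟩ : ∃ n : ℕ, charDegree (χ : G → ℂ) = n ∧ n ∣ Nat.card G ∧ n ≠ 0 := ⟨_, rfl, Cfsg.Agent.H27.charDegree_dvd_card χ.2, h5⟩
  rw [hn] at hdvd h3
  have h8 : (Nat.card G).factorization p ≤ n.factorization p := by omega
  obtain ⟨c, hc⟩ := hdvd
  have h9 : Nat.card G = n * (p * c) := by rw [← hc, Nat.mul_div_cancel' h6]
  have hc0 : c ≠ 0 := by rintro rfl; rw [mul_zero, mul_zero] at h9; exact Nat.card_pos.ne' h9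
  rw [h9, Nat.factorization_mul h7 (mul_ne_zero (Fact.out : p.Prime).ne_zero hc0),
    Nat.factorization_mul (Fact.out : p.Prime).ne_zero hc0] at h8
  simp [(Fact.out : p.Prime).factorization_self] at h8

lemma pel_eq_one {x : G} {P : Subgroup G} (hP : IsPGroup p P) (hx : x ∈ P) (h : ¬ p ∣ orderOf x) : x = 1 := by
  obtain ⟨k, hk⟩ := (IsPGroup.iff_orderOf.mp hP) ⟨x, hx⟩
  rw [Subgroup.orderOf_mk] at hk
  have hk0 : k = 0 := by
    by_contra hk0
    exact h (hk ▸ dvd_pow_self p hk0)
  rw [hk0, pow_zero] at hk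
  exact orderOf_eq_one_iff.1 hk

theorem sylow_radical (hM : IsPModular p M) (P : Sylow p G) :
    (Cfsg.pCore p (Subgroup.normalizer ((P : Subgroup G) : Set G))).map (Subgroup.normalizer ((P : Subgroup G) : Set G)).subtype = (P : Subgroup G) := by
  haveI : Fintype G := Fintype.ofFinite _
  have h1 : IsDefectGroup p M (Cfsg.principalBlock M G) (P : Subgroup G) := (Cfsg.Agent.S4652.result p M hM _).2 ⟨P, rfl⟩
  have hB : IsPBlock M (Cfsg.principalBlock M G) := ⟨⟨_, Cfsg.Agent.H3.isIrr_one⟩, rfl⟩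
  exact Cfsg.Agent.S0955.result p M hM _ hB _ h1

/-- the number of blocks of maximal defect -/
theorem card_full (hM : IsPModular p M) (hc : Cen p G) (hp : p ∣ Nat.card G) (P : Sylow p G) :
    Nat.card {B : Set (IrrCharacter G) // IsPBlock M B ∧ IsDefectGroup p M B (P : Subgroup G)} =
      Nat.card {z : G // z ∈ Subgroup.center G ∧ ¬ p ∣ orderOf z} := by
  classical
  have hPne : (P : Subgroup G) ≠ ⊥ := P.ne_bot_of_dvd_card hp
  rw [Cfsg.Agent.S0953.result p M hM P]
  symm
  have hcz : Subgroup.center G ≤ Subgroup.normalizer ((P : Subgroup G) : Set G) := by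
    intro z hz
    rw [Subgroup.mem_normalizer_iff]
    intro y
    rw [(Subgroup.mem_center_iff.1 hz y).symm, mul_inv_cancel_right]
  have hcc : Subgroup.center G ≤ Subgroup.centralizer ((P : Subgroup G) : Set G) := Subgroup.center_le_centralizer _
  apply Nat.card_congr
  refine Equiv.ofBijective (fun z => ⟨ConjClasses.mk ⟨z.1, hcz z.2.1⟩, ?_⟩) ⟨?_, ?_⟩
  · intro n hn
    have h1 := ConjClasses.mk_eq_mk_iff_isConj.1 hn
    obtain ⟨c, hc1⟩ := isConj_iff.1 h1
    have h2 : (n : G) = z.1 := by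
      have h3 := congrArg Subtype.val hc1
      have h4 : (c : G) * n * (c : G)⁻¹ = z.1 := h3
      have h5 : (n : G) = (c : G)⁻¹ * z.1 * c := by rw [← h4]; group
      rw [h5, mul_assoc, (Subgroup.mem_center_iff.1 z.2.1 (c : G)).symm, inv_mul_cancel_left]
    refine ⟨?_, by rw [h2]; exact hcc z.2.1⟩
    rw [← Subgroup.orderOf_coe, h2]
    exact z.2.2
  · intro z z' h
    have h1 := ConjClasses.mk_eq_mk_iff_isConj.1 (congrArg Subtype.val h)
    obtain ⟨c, hc1⟩ := isConj_iff.1 h1
    apply Subtype.ext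
    have h4 : (c : G) * z.1 * (c : G)⁻¹ = z'.1 := congrArg Subtype.val hc1
    rw [← h4, (Subgroup.mem_center_iff.1 z.2.1 (c : G)), mul_inv_cancel_right]
  · rintro ⟨C, hC⟩
    obtain ⟨n, rfl⟩ := ConjClasses.mk_surjective C
    obtain ⟨h1, h2⟩ := hC n rfl
    refine ⟨⟨n, hc P P.isPGroup' hPne (sylow_radical hM P) n h2 (by rwa [Subgroup.orderOf_coe]), by rwa [Subgroup.orderOf_coe]⟩, ?_⟩
    rfl

theorem block_cases (hM : IsPModular p M) (hc : Cen p G) (P : Sylow p G)
    (hU : ∀ χ χ' : IrrCharacter G, ¬ p ∣ Nat.card G / charDegree (χ : G → ℂ) → ¬ p ∣ Nat.card G / charDegree (χ' : G → ℂ) → χ = χ')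
    {χ0 : IrrCharacter G} (h0 : ¬ p ∣ Nat.card G / charDegree (χ0 : G → ℂ))
    (B : Set (IrrCharacter G)) (hB : IsPBlock M B) : B = {χ0} ∨ IsDefectGroup p M B (P : Subgroup G) := by
  haveI : Fintype G := Fintype.ofFinite _
  have hpr := hM.2.1.isPrime
  have hB0 := (Cfsg.Agent.S0914.result p M hM χ0).1 h0
  obtain ⟨D, hD⟩ := exists_isDefectGroup hM hB
  by_cases hb : D = ⊥
  · left
    obtain ⟨χ, rfl⟩ := hB
    rw [hb] at hD
    have h1 := zero_of_bot hM χ hD
    rw [← hB0, hU χ χ0 h1 h0]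
  · right
    obtain ⟨Q, hQ⟩ := (IsDefectGroup.isPGroup hM hD).exists_le_sylow
    obtain ⟨c, hc'⟩ := MulAction.exists_smul_eq G Q P
    have hle : Cfsg.Agent.L.cj c D ≤ (P : Subgroup G) := by
      rw [← hc', Sylow.coe_subgroup_smul]
      exact Subgroup.map_mono hQ
    have h2 := IsDefectGroup.cj hM hD c
    have hne : Cfsg.Agent.L.cj c D ≠ ⊥ := by
      intro h
      exact hb ((Subgroup.map_eq_bot_iff_of_injective _ (MulAut.conj c).injective).1 h)
    rw [defect_full hM hc hB h2 hne P hle] at h2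
    exact h2

lemma not_full_of_zero (hM : IsPModular p M) (hp : p ∣ Nat.card G) (P : Sylow p G)
    {χ0 : IrrCharacter G} (h0 : ¬ p ∣ Nat.card G / charDegree (χ0 : G → ℂ)) :
    ¬ IsDefectGroup p M ({χ0} : Set (IrrCharacter G)) (P : Subgroup G) := by
  haveI : Fintype G := Fintype.ofFinite _
  have hpr := hM.2.1.isPrime
  have hPne : (P : Subgroup G) ≠ ⊥ := P.ne_bot_of_dvd_card hp
  have hB0 := (Cfsg.Agent.S0914.result p M hM χ0).1 h0
  intro hD
  have h1 := card_defect hM ⟨χ0, hB0.symm⟩ hD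
  apply hPne
  rw [← Subgroup.card_eq_one, h1]
  unfold blockDefect
  rw [Set.image_singleton, csInf_singleton]
  obtain ⟨n, hn, h6, h7⟩ : ∃ n : ℕ, charDegree (χ0 : G → ℂ) = n ∧ n ∣ Nat.card G ∧ n ≠ 0 := ⟨_, rfl, Cfsg.Agent.H27.charDegree_dvd_card χ0.2, (charDegree_spec χ0.2).2⟩
  rw [hn] at h0 ⊢
  obtain ⟨c, hc⟩ := h6
  rw [hc, Nat.mul_div_cancel_left _ (Nat.pos_of_ne_zero h7)] at h0
  have hc0 : c ≠ 0 := by rintro rfl; exact h0 (dvd_zero _)
  rw [hc, Nat.factorization_mul h7 hc0, Finsupp.add_apply, Nat.factorization_eq_zero_of_not_dvd h0]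
  simp

theorem card_blocks (hM : IsPModular p M) (hc : Cen p G) (hp : p ∣ Nat.card G)
    (hE : ∃ χ : IrrCharacter G, ¬ p ∣ Nat.card G / charDegree (χ : G → ℂ))
    (hU : ∀ χ χ' : IrrCharacter G, ¬ p ∣ Nat.card G / charDegree (χ : G → ℂ) → ¬ p ∣ Nat.card G / charDegree (χ' : G → ℂ) → χ = χ') :
    Nat.card {B : Set (IrrCharacter G) // IsPBlock M B} =
      Nat.card {z : G // z ∈ Subgroup.center G ∧ ¬ p ∣ orderOf z} + 1 := by
  classical
  haveI : Fintype G := Fintype.ofFinite _
  have hpr := hM.2.1.isPrime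
  obtain ⟨P⟩ : Nonempty (Sylow p G) := inferInstance
  obtain ⟨χ0, h0⟩ := hE
  have hB0 := (Cfsg.Agent.S0914.result p M hM χ0).1 h0
  rw [← card_full hM hc hp P]
  have e : {B : Set (IrrCharacter G) | IsPBlock M B} = insert {χ0} {B : Set (IrrCharacter G) | IsPBlock M B ∧ IsDefectGroup p M B (P : Subgroup G)} := by
    ext B
    constructor
    · intro hB
      rcases block_cases hM hc P hU h0 B hB with h | h
      · exact Or.inl h
      · exact Or.inr ⟨hB, h⟩
    · rintro (h | h)
      · rw [h]; exact ⟨χ0, hB0.symm⟩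
      · exact h.1
  haveI : Finite (Set (IrrCharacter G)) := inferInstance
  have h1 := Set.ncard_insert_of_notMem (a := ({χ0} : Set (IrrCharacter G))) (s := {B : Set (IrrCharacter G) | IsPBlock M B ∧ IsDefectGroup p M B (P : Subgroup G)})
    (fun h => not_full_of_zero hM hp P h0 h.2) (Set.toFinite _)
  rw [← e] at h1
  rw [← Nat.card_coe_set_eq, ← Nat.card_coe_set_eq] at h1
  exact h1

/-- A subgroup that is normalised by an overgroup of the normaliser of a radical `p`-subgroup -/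
theorem le_of_radical {D K E : Subgroup G} (hD : IsPGroup p D)
    (hrad : (Cfsg.pCore p (Subgroup.normalizer (D : Set G))).map (Subgroup.normalizer (D : Set G)).subtype = D)
    (hNK : Subgroup.normalizer (D : Set G) ≤ K) (hE : IsPGroup p E) (hKE : K ≤ Subgroup.normalizer (E : Set G)) : E ≤ D := by
  have h1 : E ⊓ Subgroup.normalizer (D : Set G) ≤ D := by
    intro x hx
    have h2 : (E.subgroupOf (Subgroup.normalizer (D : Set G))).Normal := by
      constructor
      intro n hn g
      rw [Subgroup.mem_subgroupOf] at hn ⊢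
      exact (Subgroup.mem_normalizer_iff.1 (hKE (hNK g.2)) n).1 hn
    have h3 : IsPGroup p (E.subgroupOf (Subgroup.normalizer (D : Set G))) :=
      hE.comap_of_injective _ (Subgroup.subtype_injective _)
    have h4 := Cfsg.Agent.L.le_pCore_of_normal h2 h3
    rw [← hrad]
    exact ⟨⟨x, hx.2⟩, h4 (by rw [Subgroup.mem_subgroupOf]; exact hx.1), rfl⟩
  have hDE : D ≤ Subgroup.normalizer (E : Set G) := Subgroup.le_normalizer.trans (hNK.trans hKE)
  have hR : IsPGroup p ↥(D ⊔ E) := hD.to_sup_of_normal_right' hE hDE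
  by_contra hne
  have hlt : D.subgroupOf (D ⊔ E) < ⊤ := by
    rw [lt_top_iff_ne_top]
    intro h
    rw [Subgroup.subgroupOf_eq_top] at h
    exact hne (le_sup_right.trans h)
  haveI : Finite ↥(D ⊔ E) := inferInstance
  haveI := hR.isNilpotent
  have h5 := Group.normalizerCondition_of_isNilpotent (D.subgroupOf (D ⊔ E)) hlt
  obtain ⟨r, hr1, hr2⟩ := SetLike.exists_of_lt h5
  apply hr2
  rw [Subgroup.mem_subgroupOf]
  have hr3 : (r : G) ∈ Subgroup.normalizer (D : Set G) := by
    rw [Subgroup.mem_normalizer_iff]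
    intro y
    constructor
    · intro hy
      have := (Subgroup.mem_normalizer_iff.1 hr1 ⟨y, le_sup_left (a := D) hy⟩).1 (by rw [Subgroup.mem_subgroupOf]; exact hy)
      rw [Subgroup.mem_subgroupOf] at this
      exact this
    · intro hy
      have hy' : y ∈ D ⊔ E := by
        have : y = (r : G)⁻¹ * ((r : G) * y * (r : G)⁻¹) * (r : G) := by group
        rw [this]
        exact mul_mem (mul_mem (inv_mem r.2) (le_sup_left (a := D) hy)) r.2
      have := (Subgroup.mem_normalizer_iff.1 hr1 ⟨y, hy'⟩).2 (by rw [Subgroup.mem_subgroupOf]; exact hy)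
      rw [Subgroup.mem_subgroupOf] at this
      exact this
  have h6 : (r : G) ∈ (D : Set G) * (E : Set G) := by
    rw [← Subgroup.coe_mul_of_left_le_normalizer_right D E hDE]
    exact r.2
  obtain ⟨d, hd, e, he, hde⟩ := Set.mem_mul.1 h6
  have h7 : e ∈ Subgroup.normalizer (D : Set G) := by
    have : e = d⁻¹ * r := by rw [← hde]; group
    rw [this]
    exact mul_mem (inv_mem (Subgroup.le_normalizer hd)) hr3
  rw [← hde]
  exact mul_mem hd (h1 ⟨he, h7⟩)

end Cfsg.Agent.LSt
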