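import Mathlib
import Cfsg.Agent.H26.ModSum
import Cfsg.Agent.H26.AugNil

set_option autoImplicit false

/-! Blocks of defect zero and groups with a big cell. -/

namespace Cfsg.Agent.LSt

open MonoidAlgebra

variable {k : Type*} [Field k] {G : Type*} [Group G] [Finite G] {p : ℕ} [Fact p.Prime]

/-- group element in the group algebra -/
noncomputable abbrev o (k : Type*) [Field k] {G : Type*} [Group G] (g : G) : MonoidAlgebra k G := MonoidAlgebra.of k G g

/-- sum of the elements of a subgroup -/
noncomputable def hat (k : Type*) [Field k] {G : Type*} [Group G] [Finite G] (U : Subgroup G) : MonoidAlgebra k G :=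
  letI := Fintype.ofFinite U
  ∑ u : U, o k (u : G)

lemma hat_eq (U : Subgroup G) [Fintype U] : hat k U = ∑ u : U, o k (u : G) := by
  unfold hat
  convert rfl

omit [Finite G] in
lemma p_smul [CharP k p] (a : MonoidAlgebra k G) : p • a = 0 := by
  rw [← Nat.cast_smul_eq_nsmul k, CharP.cast_eq_zero, zero_smul]

omit [Finite G] in
lemma o_mul (g h : G) : o k (g * h) = o k g * o k h := map_mul _ _ _

omit [Finite G] in
lemma o_one : o k (1 : G) = 1 := map_one _

omit [Finite G] in
lemma o_smul (g : G) (c : k) (v : MonoidAlgebra k G) : o k g * (c • v) = c • (o k g * v) := mul_smul_comm _ _ _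

lemma o_mul_hat {U : Subgroup G} {u : G} (hu : u ∈ U) : o k u * hat k U = hat k U := by
  letI := Fintype.ofFinite U
  rw [hat_eq, Finset.mul_sum]
  rw [← Equiv.sum_comp (Equiv.mulLeft (⟨u, hu⟩ : U)) (fun u : U => o k (u : G))]
  exact Finset.sum_congr rfl fun x _ => (o_mul _ _).symm

/-- small cells do not contribute -/
lemma hat_small [CharP k p] {U : Subgroup G} (hU : IsPGroup p U) {g x : G} (hx : x ∈ U) (hx1 : x ≠ 1) (hg : g⁻¹ * x * g ∈ U)
    {v : MonoidAlgebra k G} (hv : ∀ u ∈ U, o k u * v = v) : hat k U * (o k g * v) = 0 := by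
  classical
  letI := Fintype.ofFinite U
  let X : Subgroup U := Subgroup.zpowers ⟨x, hx⟩
  have hX : IsPGroup p X := hU.to_subgroup X
  let act : MulAction X U :=
    { smul := fun y u => u * (y : U)⁻¹
      one_smul := fun u => by show u * ((1 : X) : U)⁻¹ = u; simp
      mul_smul := fun a b u => by show u * ((a * b : X) : U)⁻¹ = u * (b : U)⁻¹ * (a : U)⁻¹; simp [mul_assoc] }
  have hsm : ∀ (y : X) (u : U), (y • u : U) = u * (y : U)⁻¹ := fun _ _ => rfl
  have h1 := Cfsg.Agent.H26.sum_eq_sum_fixedPoints (p := p) hX (α := U) (A := MonoidAlgebra k G) (p_smul (p := p))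
    (fun u => o k (u : G) * (o k g * v)) (by
      rintro ⟨y, hy⟩ u
      obtain ⟨m, rfl⟩ := Subgroup.mem_zpowers_iff.1 hy
      rw [hsm]
      show o k ((u * ((⟨x, hx⟩ : U) ^ m)⁻¹ : U) : G) * _ = _
      have h2 : ((u * ((⟨x, hx⟩ : U) ^ m)⁻¹ : U) : G) = u * (x ^ m)⁻¹ := by simp
      rw [h2, ← mul_assoc, ← o_mul, ← mul_assoc, ← o_mul]
      have h3 : (u : G) * (x ^ m)⁻¹ * g = u * g * (g⁻¹ * x * g) ^ (-m) := by
        have : (g⁻¹ * x * g) ^ (-m) = g⁻¹ * x ^ (-m) * g := by
          have h4 : (g⁻¹ * x * g⁻¹⁻¹) ^ (-m) = g⁻¹ * x ^ (-m) * g⁻¹⁻¹ := conj_zpow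
          rw [inv_inv] at h4
          exact h4
        rw [this, zpow_neg]
        group
      rw [h3, o_mul, mul_assoc, hv _ (zpow_mem hg _)])
  rw [hat_eq, Finset.sum_mul, h1]
  apply Finset.sum_eq_zero
  intro u hu
  exfalso
  rw [Finset.mem_filter] at hu
  have h2 := hu.2 ⟨⟨x, hx⟩, Subgroup.mem_zpowers _⟩
  rw [hsm] at h2
  have h3 : ((⟨x, hx⟩ : U))⁻¹ = 1 := by
    have := mul_eq_left.1 h2
    exact this
  rw [inv_eq_one] at h3
  exact hx1 (congrArg Subtype.val h3)

/-- invariants of p-subgroups are norms on blocks of defect zero -/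
lemma exists_hat {U : Subgroup G} {e v : MonoidAlgebra k G} (he : ∀ x g : G, e.coeff (g * x * g⁻¹) = e.coeff x)
    (hs : ∀ x : G, e.coeff x ≠ 0 → ∀ u ∈ U, u * x * u⁻¹ = x → u = 1) (hv : ∀ u ∈ U, o k u * v = v) :
    ∃ a : MonoidAlgebra k G, e * v = hat k U * (a * v) := by
  classical
  letI := Fintype.ofFinite U
  letI := Fintype.ofFinite G
  let act : MulAction U G :=
    { smul := fun y u => y * u * (y : G)⁻¹
      one_smul := fun u => by show ((1 : U) : G) * u * ((1 : U) : G)⁻¹ = u; simp
      mul_smul := fun a b u => by show ((a * b : U) : G) * u * ((a * b : U) : G)⁻¹ = a * (b * u * (b : G)⁻¹) * (a : G)⁻¹; simp [mul_assoc] }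
  have hsm : ∀ (y : U) (u : G), (y • u : G) = y * u * (y : G)⁻¹ := fun _ _ => rfl
  let F : G → MonoidAlgebra k G := fun g => e.coeff g • (o k g * v)
  have hF : ∀ (u : U) (g : G), F (u • g) = o k (u : G) * F g := by
    intro u g
    show e.coeff (u • g) • (o k (u • g) * v) = _
    rw [hsm, he]
    show e.coeff g • (o k (u * g * (u : G)⁻¹) * v) = o k (u : G) * (e.coeff g • (o k g * v))
    rw [o_mul, o_mul, mul_assoc, mul_assoc, hv _ (inv_mem u.2), o_smul]
  have h0 : e * v = ∑ g : G, F g := by
    have h1 : e = ∑ g : G, e.coeff g • o k g := by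
      ext x
      simp [MonoidAlgebra.coeff_sum, Finsupp.single_apply]
    conv_lhs => rw [h1]
    rw [Finset.sum_mul]
    exact Finset.sum_congr rfl fun g _ => smul_mul_assoc _ _ _
  letI : Fintype (MulAction.orbitRel.Quotient U G) := Fintype.ofFinite _
  have h2 : ∀ q : MulAction.orbitRel.Quotient U G, ∑ g ∈ Finset.univ.filter (fun g : G => (Quotient.mk (MulAction.orbitRel U G) g) = q), F g = hat k U * F q.out := by
    intro q
    have hq : (Quotient.mk (MulAction.orbitRel U G) q.out) = q := Quotient.out_eq q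
    by_cases h : e.coeff q.out = 0
    · have h3 : F q.out = 0 := by show e.coeff q.out • _ = _; rw [h, zero_smul]
      rw [h3, mul_zero]
      apply Finset.sum_eq_zero
      intro g hg
      rw [Finset.mem_filter] at hg
      have h4 : (MulAction.orbitRel U G) g q.out := Quotient.exact (hg.2.trans hq.symm)
      rw [MulAction.orbitRel_apply, MulAction.mem_orbit_iff] at h4
      obtain ⟨u, hu⟩ := h4
      rw [← hu, hF, h3, mul_zero]
    · rw [hat_eq, Finset.sum_mul]
      symm
      apply Finset.sum_bij (fun (u : U) _ => u • q.out)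
      · intro u _
        rw [Finset.mem_filter]
        refine ⟨Finset.mem_univ _, ?_⟩
        conv_rhs => rw [← hq]
        exact Quotient.sound ⟨u, rfl⟩
      · intro u _ u' _ h3
        have h4 : (u'⁻¹ * u) • q.out = q.out := by
          have h5 : u • q.out = u' • q.out := h3
          rw [mul_smul, h5, inv_smul_smul]
        have h6 := hs _ h _ (u'⁻¹ * u : U).2 h4
        have h7 : u'⁻¹ * u = 1 := Subtype.ext h6
        rw [inv_mul_eq_one] at h7
        exact h7.symm
      · intro g hg
        rw [Finset.mem_filter] at hg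
        have h4 : (MulAction.orbitRel U G) g q.out := Quotient.exact (hg.2.trans hq.symm)
        rw [MulAction.orbitRel_apply, MulAction.mem_orbit_iff] at h4
        obtain ⟨u, hu⟩ := h4
        exact ⟨u, Finset.mem_univ _, hu⟩
      · intro u _
        exact (hF u _).symm
  refine ⟨∑ q : MulAction.orbitRel.Quotient U G, e.coeff q.out • o k q.out, ?_⟩
  rw [h0, ← Finset.sum_fiberwise Finset.univ (fun g => (Quotient.mk (MulAction.orbitRel U G) g : MulAction.orbitRel.Quotient U G)),
    Finset.sum_congr rfl fun q _ => h2 q, ← Finset.mul_sum, Finset.sum_mul]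
  congr 1
  exact Finset.sum_congr rfl fun q _ => (smul_mul_assoc _ _ _).symm

/-- sums over a subgroup in a sum over the group -/
lemma hat_zero_of_sub {U : Subgroup G} {F : Type*} [Fintype F] [AddGroup F] {y : F → G} (hy : ∀ c, y c ∈ U) (hadd : ∀ a b, y (a + b) = y a * y b)
    {z : MonoidAlgebra k G} (hinj : Function.Injective y) (hz : ∑ c, o k (y c) * z = 0) : hat k U * z = 0 := by
  classical
  letI := Fintype.ofFinite U
  let f : Multiplicative F →* U :=
    { toFun := fun c => ⟨y c.toAdd, hy _⟩
      map_one' := by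
        apply Subtype.ext
        show y 0 = 1
        have := hadd 0 0
        rw [add_zero] at this
        exact left_eq_mul.1 this
      map_mul' := fun a b => Subtype.ext (hadd _ _) }
  have hf : Function.Injective f := fun a b h => hinj (congrArg Subtype.val h)
  let s : Subgroup U := f.range
  let _ : Fintype (U ⧸ s) := Fintype.ofFinite _
  rw [hat_eq, Finset.sum_mul, ← Finset.sum_fiberwise Finset.univ (fun u : U => (u : U ⧸ s))]
  apply Finset.sum_eq_zero
  intro q _
  have hq : ((q.out : U) : U ⧸ s) = q := QuotientGroup.out_eq' q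
  have h1 : ∑ u ∈ Finset.univ.filter (fun u : U => (u : U ⧸ s) = q), o k (u : G) * z = ∑ c : F, o k ((q.out : U) : G) * (o k (y c) * z) := by
    symm
    apply Finset.sum_bij (fun (c : F) _ => (q.out * f (Multiplicative.ofAdd c) : U))
    · intro c _
      rw [Finset.mem_filter]
      refine ⟨Finset.mem_univ _, ?_⟩
      rw [QuotientGroup.mk_mul_of_mem (s := s) q.out (b := f (Multiplicative.ofAdd c)) ⟨_, rfl⟩]
      exact hq
    · intro a _ b _ h
      exact hf (mul_left_cancel h)
    · intro u hu
      rw [Finset.mem_filter] at hu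
      have h2 : ((q.out : U) : U ⧸ s) = (u : U ⧸ s) := hq.trans hu.2.symm
      rw [QuotientGroup.eq] at h2
      obtain ⟨c, hc⟩ := h2
      exact ⟨c.toAdd, Finset.mem_univ _, by show q.out * f c = u; rw [hc, mul_inv_cancel_left]⟩
    · intro c _
      rw [← mul_assoc, ← o_mul]
      rfl
  rw [h1, ← Finset.mul_sum, hz, mul_zero]

end Cfsg.Agent.LSt
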