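import Mathlib
import Cfsg.Agent.L.StC1

set_option autoImplicit false

/-! At most one block of defect zero for a group with a big cell and rank one data. -/

namespace Cfsg.Agent.LSt

open MonoidAlgebra

/-- big cell data -/
structure Big (G : Type*) [Group G] (p : ℕ) where
  U : Subgroup G
  T : Subgroup G
  w : G
  hU : IsPGroup p U
  comm : ∀ s ∈ T, ∀ t ∈ T, s * t = t * s
  norm : ∀ t ∈ T, ∀ u ∈ U, t⁻¹ * u * t ∈ U
  wT : ∀ t ∈ T, w⁻¹ * t * w ∈ T
  cases : ∀ g, (∃ u ∈ U, ∃ t ∈ T, ∃ u' ∈ U, g = u * t * w * u') ∨ (∃ x ∈ U, x ≠ 1 ∧ g⁻¹ * x * g ∈ U)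

/-- rank one data -/
structure RK {G : Type*} [Group G] {p : ℕ} (S : Big G p) (F : Type*) [Field F] (x : F → G) (h : Fˣ →* G) (n : G) : Prop where
  xU : ∀ c, x c ∈ S.U
  xadd : ∀ a b, x (a + b) = x a * x b
  hT : ∀ b, h b ∈ S.T
  nn : n * n ∈ S.T
  push : ∀ u ∈ S.U, ∃ a : F, ∀ c, n⁻¹ * ((x (a + c))⁻¹ * u * x c) * n ∈ S.U
  rel : ∀ b : Fˣ, n * x (-((b⁻¹ : Fˣ) : F)) * n = x b * h b * n * x b
  hx : ∀ (b : Fˣ) (c : F), h b * x c = x (b ^ 2 * c) * h b
  opp : ∃ y : F → G, (∀ c, y c ∈ S.U) ∧ (∀ a b, y (a + b) = y a * y b) ∧ Function.Injective y ∧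
    ∃ e : F ≃ F, ∀ c, S.w⁻¹ * y c * S.w = n⁻¹ * x (e c) * n

variable {k : Type*} [Field k] {G : Type*} [Group G] [Finite G] {p : ℕ} [Fact p.Prime] [CharP k p] (S : Big G p)

/-- eigenvector data -/
structure Eig (I : Submodule (MonoidAlgebra k G) (MonoidAlgebra k G)) (v : MonoidAlgebra k G) : Prop where
  mem : v ∈ I
  ne : v ≠ 0
  fix : ∀ u ∈ S.U, o k u * v = v
  eig : ∀ t ∈ S.T, ∃ c : k, o k t * v = c • v

/-- a left ideal which behaves like a simple projective module -/
structure SP (U : Subgroup G) (I : Submodule (MonoidAlgebra k G) (MonoidAlgebra k G)) : Prop where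
  at_ : IsAtom I
  proj : ∀ v ∈ I, (∀ u ∈ U, o k u * v = v) → ∃ a : MonoidAlgebra k G, v = hat k U * (a * v)

variable {S}

omit [Finite G] [Fact p.Prime] [CharP k p] in
lemma exists_mul {I : Submodule (MonoidAlgebra k G) (MonoidAlgebra k G)} (hI : IsAtom I) {v z : MonoidAlgebra k G} (hv : v ∈ I) (h0 : v ≠ 0) (hz : z ∈ I) :
    ∃ a, z = a * v := by
  have h1 : Submodule.span (MonoidAlgebra k G) {v} = I := by
    rcases hI.le_iff.1 ((Submodule.span_singleton_le_iff_mem v I).2 hv) with h | h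
    · exact absurd (Submodule.span_singleton_eq_bot.1 h) h0
    · exact h
  rw [← h1] at hz
  obtain ⟨a, ha⟩ := Submodule.mem_span_singleton.1 hz
  exact ⟨a, ha.symm⟩

/-- the sum over the big cell -/
lemma cell {I : Submodule (MonoidAlgebra k G) (MonoidAlgebra k G)} {v : MonoidAlgebra k G} (hv : Eig S I v) (g : G) :
    ∃ c : k, hat k S.U * (o k g * v) = c • (hat k S.U * (o k S.w * v)) := by
  rcases S.cases g with ⟨u, hu, t, ht, u', hu', rfl⟩ | ⟨x, hx, hx1, hg⟩
  · obtain ⟨c, hc⟩ := hv.eig _ (S.wT t ht)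
    refine ⟨c, ?_⟩
    have e1 : o k (u * t * S.w * u') * v = o k u * (o k t * (o k S.w * v)) := by
      rw [o_mul, mul_assoc, hv.fix _ hu', o_mul, o_mul, mul_assoc, mul_assoc]
    have e2 : o k t * (o k S.w * v) = c • (o k S.w * v) := by
      rw [← mul_assoc, ← o_mul]
      have : t * S.w = S.w * (S.w⁻¹ * t * S.w) := by group
      rw [this, o_mul, mul_assoc, hc, o_smul]
    have e3 : hat k S.U * o k u = hat k S.U := by
      letI := Fintype.ofFinite S.U
      rw [hat_eq, Finset.sum_mul, ← Equiv.sum_comp (Equiv.mulRight (⟨u, hu⟩ : S.U)) (fun u : S.U => o k (u : G))]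
      exact Finset.sum_congr rfl fun x _ => (o_mul _ _).symm
    rw [e1, e2, o_smul, mul_smul_comm, ← mul_assoc, e3]
  · exact ⟨0, by rw [zero_smul]; exact hat_small S.hU hx hx1 hg hv.fix⟩

lemma cell' {I : Submodule (MonoidAlgebra k G) (MonoidAlgebra k G)} {v : MonoidAlgebra k G} (hv : Eig S I v) (a : MonoidAlgebra k G) :
    ∃ c : k, hat k S.U * (a * v) = c • (hat k S.U * (o k S.w * v)) := by
  induction a using MonoidAlgebra.induction_on with
  | of g => exact cell hv g
  | add a b ha hb =>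
    obtain ⟨c, hc⟩ := ha
    obtain ⟨d, hd⟩ := hb
    exact ⟨c + d, by rw [add_mul, mul_add, hc, hd, add_smul]⟩
  | smul r a ha =>
    obtain ⟨c, hc⟩ := ha
    exact ⟨r * c, by rw [smul_mul_assoc, mul_smul_comm, hc, mul_smul]⟩

/-- the fixed points are one-dimensional -/
lemma one_dim {I : Submodule (MonoidAlgebra k G) (MonoidAlgebra k G)} (hI : SP S.U I) {v : MonoidAlgebra k G} (hv : Eig S I v)
    {z : MonoidAlgebra k G} (hz : z ∈ I) (hzU : ∀ u ∈ S.U, o k u * z = z) : ∃ c : k, z = c • (hat k S.U * (o k S.w * v)) := by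
  obtain ⟨a, ha⟩ := hI.proj z hz hzU
  obtain ⟨b, hb⟩ := exists_mul hI.at_ hv.mem hv.ne hz
  obtain ⟨c, hc⟩ := cell' hv (a * b)
  refine ⟨c, ?_⟩
  rw [← hc, mul_assoc, ← hb]
  exact ha

lemma big_ne {I : Submodule (MonoidAlgebra k G) (MonoidAlgebra k G)} (hI : SP S.U I) {v : MonoidAlgebra k G} (hv : Eig S I v) :
    hat k S.U * (o k S.w * v) ≠ 0 := by
  intro h
  obtain ⟨c, hc⟩ := one_dim hI hv hv.mem hv.fix
  rw [h, smul_zero] at hc
  exact hv.ne hc

lemma mult {I : Submodule (MonoidAlgebra k G) (MonoidAlgebra k G)} (hI : SP S.U I) {v : MonoidAlgebra k G} (hv : Eig S I v)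
    {z : MonoidAlgebra k G} (hz : z ∈ I) (hzU : ∀ u ∈ S.U, o k u * z = z) : ∃ c : k, z = c • v := by
  obtain ⟨c, hc⟩ := one_dim hI hv hz hzU
  obtain ⟨d, hd⟩ := one_dim hI hv hv.mem hv.fix
  have hd0 : d ≠ 0 := by
    rintro rfl
    rw [zero_smul] at hd
    exact hv.ne hd
  refine ⟨c * d⁻¹, ?_⟩
  rw [hd, smul_smul, inv_mul_cancel_right₀ hd0]
  exact hc

lemma sum_mulLeft' {F : Type*} [Field F] [Fintype F] {A : Type*} [AddCommMonoid A] (c : F) (hc : c ≠ 0) (f : F → A) :
    ∑ d : F, f (c * d) = ∑ d : F, f d := Equiv.sum_comp (Equiv.mulLeft₀ c hc) f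

lemma sum_addRight' {F : Type*} [Field F] [Fintype F] {A : Type*} [AddCommMonoid A] (c : F) (f : F → A) :
    ∑ d : F, f (d + c) = ∑ d : F, f d := Equiv.sum_comp (Equiv.addRight c) f

/-- the rank one argument -/
theorem rank_one {I : Submodule (MonoidAlgebra k G) (MonoidAlgebra k G)} (hI : SP S.U I) {v : MonoidAlgebra k G} (hv : Eig S I v)
    {F : Type*} [Field F] [Finite F] [CharP F p] {x : F → G} {h : Fˣ →* G} {n : G} (R : RK S F x h n) (b : Fˣ) : o k (h b) * v = v := by
  classical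
  letI := Fintype.ofFinite F
  have hcard : ((Fintype.card F : ℕ) : k) = 0 := by
    obtain ⟨m, hm, h1⟩ := FiniteField.card F p
    rw [h1]
    push_cast
    rw [CharP.cast_eq_zero, zero_pow (PNat.ne_zero _)]
  let A : MonoidAlgebra k G → MonoidAlgebra k G := fun z => ∑ c : F, o k (x c) * (o k n * z)
  have hAI : A v ∈ I := I.sum_mem fun c _ => I.smul_mem _ (I.smul_mem _ hv.mem)
  have hAU : ∀ u ∈ S.U, o k u * A v = A v := by
    intro u hu
    obtain ⟨a, ha⟩ := R.push u hu
    show o k u * ∑ c : F, o k (x c) * (o k n * v) = ∑ c : F, o k (x c) * (o k n * v)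
    rw [Finset.mul_sum, ← Equiv.sum_comp (Equiv.addLeft a) (fun c => o k (x c) * (o k n * v))]
    refine Finset.sum_congr rfl fun c _ => ?_
    show o k u * (o k (x c) * (o k n * v)) = o k (x (a + c)) * (o k n * v)
    have e1 : u * (x c * n) = (x (a + c) * n) * (n⁻¹ * ((x (a + c))⁻¹ * u * x c) * n) := by group
    rw [← mul_assoc (o k (x c)), ← o_mul, ← mul_assoc, ← o_mul, e1, o_mul, mul_assoc, hv.fix _ (ha c), o_mul, mul_assoc]
  obtain ⟨μ, hμ⟩ := mult hI hv hAI hAU
  have hμ0 : μ ≠ 0 := by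
    rintro rfl
    rw [zero_smul] at hμ
    obtain ⟨y, hy1, hy2, hy3, e, he⟩ := R.opp
    apply big_ne hI hv
    apply hat_zero_of_sub hy1 hy2 hy3
    have e1 : ∀ c, o k (y c) * (o k S.w * v) = o k (S.w * n⁻¹) * (o k (x (e c)) * (o k n * v)) := by
      intro c
      have e2 : y c * S.w = S.w * n⁻¹ * (x (e c) * n) := by
        have := he c
        calc y c * S.w = S.w * (S.w⁻¹ * y c * S.w) := by group
          _ = _ := by rw [this]; group
      rw [← mul_assoc, ← o_mul, e2, o_mul, mul_assoc, o_mul (x (e c)), mul_assoc]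
    rw [Finset.sum_congr rfl fun c _ => e1 c, ← Finset.mul_sum, Equiv.sum_comp e (fun c => o k (x c) * (o k n * v))]
    have : ∑ c : F, o k (x c) * (o k n * v) = 0 := hμ
    rw [this, mul_zero]
  -- eigenvalues
  have hex : ∀ b : Fˣ, ∃ c : k, o k (h b) * v = c • v := fun b => hv.eig _ (R.hT b)
  choose f hf using hex
  have hinj : ∀ c d : k, c • v = d • v → c = d := by
    intro c d hcd
    by_contra hne
    have h1 : (c - d) • v = 0 := by rw [sub_smul, hcd, sub_self]
    rcases smul_eq_zero.1 h1 with h2 | h2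
    · exact hne (sub_eq_zero.1 h2)
    · exact hv.ne h2
  let φ : Fˣ →* k :=
    { toFun := f
      map_one' := by
        apply hinj
        rw [← hf, map_one, o_one, one_mul, one_smul]
      map_mul' := fun a b => by
        apply hinj
        rw [← hf, map_mul, o_mul, mul_assoc, hf b, o_smul, hf a, smul_smul, mul_comm] }
  have key : A (A v) = (∑ b : Fˣ, f b) • A v := by
    have e0 : A (A v) = ∑ c : F, ∑ d : F, o k (x d) * (o k (n * x c * n) * v) := by
      show ∑ d : F, o k (x d) * (o k n * ∑ c : F, o k (x c) * (o k n * v)) = _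
      rw [Finset.sum_comm]
      refine Finset.sum_congr rfl fun d _ => ?_
      rw [Finset.mul_sum, Finset.mul_sum]
      refine Finset.sum_congr rfl fun c _ => ?_
      rw [o_mul, o_mul, mul_assoc, mul_assoc]
    have hx0 : x 0 = 1 := by
      have := R.xadd 0 0
      rw [add_zero] at this
      exact left_eq_mul.1 this
    have e1 : ∑ d : F, o k (x d) * (o k (n * x 0 * n) * v) = 0 := by
      obtain ⟨c, hc⟩ := hv.eig _ R.nn
      rw [hx0, mul_one, hc]
      have e2 : ∀ d : F, o k (x d) * (c • v) = c • v := fun d => by rw [o_smul, hv.fix _ (R.xU d)]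
      rw [Finset.sum_congr rfl fun d _ => e2 d, Finset.sum_const, Finset.card_univ, ← Nat.cast_smul_eq_nsmul k, hcard, zero_smul]
    rw [e0, ← Finset.add_sum_erase _ _ (Finset.mem_univ (0 : F)), e1, zero_add]
    have e2 : ∀ b : Fˣ, ∑ d : F, o k (x d) * (o k (n * x (-((b⁻¹ : Fˣ) : F)) * n) * v) = f b • A v := by
      intro b
      rw [R.rel b]
      have e3 : ∀ d : F, o k (x d) * (o k (x b * h b * n * x b) * v) = o k (x (d + b)) * (o k (h b) * (o k n * v)) := by
        intro d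
        rw [o_mul, mul_assoc, hv.fix _ (R.xU _), R.xadd, o_mul, o_mul, o_mul, mul_assoc, mul_assoc, mul_assoc]
      have e4 : ∑ d : F, o k (x (d + b)) * (o k (h b) * (o k n * v)) = ∑ d : F, o k (x d) * (o k (h b) * (o k n * v)) :=
        sum_addRight' (b : F) (fun d => o k (x d) * (o k (h b) * (o k n * v)))
      rw [Finset.sum_congr rfl fun d _ => e3 d, e4]
      have hb0 : ((b : F) ^ 2) ≠ 0 := pow_ne_zero _ b.ne_zero
      have e5 : ∑ d : F, o k (x d) * (o k (h b) * (o k n * v)) = ∑ d : F, o k (h b) * (o k (x d) * (o k n * v)) := by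
        refine (sum_mulLeft' ((b : F) ^ 2) hb0 (fun d => o k (x d) * (o k (h b) * (o k n * v)))).symm.trans ?_
        refine Finset.sum_congr rfl fun d _ => ?_
        rw [← mul_assoc, ← o_mul, ← R.hx, o_mul, mul_assoc]
      rw [e5, ← Finset.mul_sum]
      show o k (h b) * A v = f b • A v
      rw [hμ, o_smul, hf, smul_comm]
    have e6 : ∑ c ∈ Finset.univ.erase (0 : F), ∑ d : F, o k (x d) * (o k (n * x c * n) * v) = ∑ b : Fˣ, ∑ d : F, o k (x d) * (o k (n * x (-((b⁻¹ : Fˣ) : F)) * n) * v) := by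
      symm
      apply Finset.sum_bij (fun (b : Fˣ) _ => -((b⁻¹ : Fˣ) : F))
      · intro b _
        rw [Finset.mem_erase]
        exact ⟨neg_ne_zero.2 (b⁻¹).ne_zero, Finset.mem_univ _⟩
      · intro a _ b _ hab
        have := neg_injective hab
        exact inv_injective (Units.ext this)
      · intro c hc
        rw [Finset.mem_erase] at hc
        refine ⟨(Units.mk0 (-c) (neg_ne_zero.2 hc.1))⁻¹, Finset.mem_univ _, ?_⟩
        rw [inv_inv]
        show - (-c) = c
        rw [neg_neg]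
      · intro _ _; rfl
    rw [e6, Finset.sum_congr rfl fun b _ => e2 b, Finset.sum_smul]
  have e1 : (μ * μ) • v = ((∑ b : Fˣ, f b) * μ) • v := by
    have e2 : A (A v) = μ • A v := by
      conv_lhs => rw [hμ]
      show ∑ c : F, o k (x c) * (o k n * (μ • v)) = μ • ∑ c : F, o k (x c) * (o k n * v)
      rw [Finset.smul_sum]
      refine Finset.sum_congr rfl fun c _ => ?_
      rw [o_smul, o_smul]
    rw [e2, hμ, smul_smul, smul_smul] at key
    exact key
  have e2 : μ = ∑ b : Fˣ, f b := mul_right_cancel₀ hμ0 (hinj _ _ e1)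
  have hφ : φ = 1 := by
    by_contra hne
    apply hμ0
    rw [e2]
    exact sum_hom_units_eq_zero φ hne
  have : f b = 1 := by
    have := DFunLike.congr_fun hφ b
    exact this
  rw [hf, this, one_smul]

end Cfsg.Agent.LSt
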