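import Mathlib
import Cfsg.Agent.L.StC2
import Cfsg.Agent.L.StB1
import Cfsg.Agent.H26.Dict4

set_option autoImplicit false

/-! At most one block of defect zero for a group with a big cell and rank one data. -/

namespace Cfsg.Agent.LSt

open MonoidAlgebra

section
variable {k : Type*} [Field k] {G : Type*} [Group G] [Finite G] {p : ℕ} [Fact p.Prime] [CharP k p] {S : Big G p}

lemma exists_fix {I : Submodule (MonoidAlgebra k G) (MonoidAlgebra k G)} (hI : I ≠ ⊥) {U : Subgroup G} (hU : IsPGroup p U) :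
    ∃ v ∈ I, v ≠ 0 ∧ ∀ u ∈ U, o k u * v = v := by
  obtain ⟨v, hv, hv0⟩ := (Submodule.ne_bot_iff I).1 hI
  let act : DistribMulAction U I :=
    { smul := fun u x => ⟨o k (u : G) * x.1, I.smul_mem _ x.2⟩
      one_smul := fun x => Subtype.ext (by show o k ((1 : U) : G) * x.1 = x.1; rw [Subgroup.coe_one, o_one, one_mul])
      mul_smul := fun a b x => Subtype.ext (by show o k ((a * b : U) : G) * x.1 = o k (a : G) * (o k (b : G) * x.1); rw [Subgroup.coe_mul, o_mul, mul_assoc])
      smul_zero := fun a => Subtype.ext (by show o k (a : G) * 0 = 0; rw [mul_zero])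
      smul_add := fun a x y => Subtype.ext (by show o k (a : G) * (x.1 + y.1) = o k (a : G) * x.1 + o k (a : G) * y.1; rw [mul_add]) }
  obtain ⟨w, hw0, hw⟩ := Cfsg.Agent.H26.exists_fixed_ne_zero hU (V := I) (fun x => Subtype.ext (by
    show p • x.1 = 0
    exact p_smul (p := p) _)) ⟨v, hv⟩ (fun h => hv0 (congrArg Subtype.val h))
  refine ⟨w.1, w.2, fun h => hw0 (Subtype.ext h), fun u hu => ?_⟩
  exact congrArg Subtype.val (hw ⟨u, hu⟩)

lemma exists_eig [IsAlgClosed k] {I : Submodule (MonoidAlgebra k G) (MonoidAlgebra k G)} (hI : I ≠ ⊥) : ∃ v, Eig S I v := by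
  classical
  have key : ∀ s : Finset G, (∀ t ∈ s, t ∈ S.T) → ∃ f : G → k, ∃ v ∈ I, v ≠ 0 ∧ (∀ u ∈ S.U, o k u * v = v) ∧ ∀ t ∈ s, o k t * v = f t • v := by
    intro s
    induction s using Finset.induction_on with
    | empty =>
      intro _
      obtain ⟨v, h1, h2, h3⟩ := exists_fix (p := p) hI S.hU
      exact ⟨fun _ => 0, v, h1, h2, h3, fun t ht => absurd ht (Finset.notMem_empty t)⟩
    | insert t₀ s hts ih =>
      intro hs
      have ht₀ : t₀ ∈ S.T := hs _ (Finset.mem_insert_self _ _)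
      have hs' : ∀ t ∈ s, t ∈ S.T := fun t ht => hs t (Finset.mem_insert_of_mem ht)
      obtain ⟨f, v, hv, hv0, hvU, hvs⟩ := ih hs'
      let E : Submodule k (MonoidAlgebra k G) :=
        { carrier := {v | v ∈ I ∧ (∀ u ∈ S.U, o k u * v = v) ∧ ∀ t ∈ s, o k t * v = f t • v}
          add_mem' := fun {a b} ha hb => ⟨I.add_mem ha.1 hb.1, fun u hu => by rw [mul_add, ha.2.1 u hu, hb.2.1 u hu],
            fun t ht => by rw [mul_add, ha.2.2 t ht, hb.2.2 t ht, smul_add]⟩
          zero_mem' := ⟨I.zero_mem, fun u _ => mul_zero _, fun t _ => by rw [mul_zero, smul_zero]⟩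
          smul_mem' := fun c a ha => ⟨by
              have h1 : c • a = (c • (1 : MonoidAlgebra k G)) * a := by rw [smul_mul_assoc, one_mul]
              rw [h1]
              exact I.smul_mem _ ha.1, fun u hu => by rw [o_smul, ha.2.1 u hu],
            fun t ht => by rw [o_smul, ha.2.2 t ht, smul_comm]⟩ }
      have hE : ∀ a ∈ E, o k t₀ * a ∈ E := by
        rintro a ⟨h1, h2, h3⟩
        refine ⟨I.smul_mem _ h1, fun u hu => ?_, fun t ht => ?_⟩
        · rw [← mul_assoc, ← o_mul]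
          have e1 : u * t₀ = t₀ * (t₀⁻¹ * u * t₀) := by group
          rw [e1, o_mul, mul_assoc, h2 _ (S.norm _ ht₀ _ hu)]
        · rw [← mul_assoc, ← o_mul, S.comm _ (hs' t ht) _ ht₀, o_mul, mul_assoc, h3 t ht, o_smul]
      let g : Module.End k E :=
        { toFun := fun a => ⟨o k t₀ * a.1, hE a.1 a.2⟩
          map_add' := fun a b => Subtype.ext (mul_add _ _ _)
          map_smul' := fun c a => Subtype.ext (o_smul _ _ _) }
      haveI : Nontrivial E := ⟨⟨⟨v, hv, hvU, hvs⟩, 0, fun h => hv0 (congrArg Subtype.val h)⟩⟩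
      haveI : FiniteDimensional k E := inferInstance
      obtain ⟨c, hc⟩ := Module.End.exists_eigenvalue g
      obtain ⟨x, hx⟩ := hc.exists_hasEigenvector
      have h1 : o k t₀ * x.1 = c • x.1 := congrArg Subtype.val hx.apply_eq_smul
      refine ⟨fun t => if t = t₀ then c else f t, x.1, x.2.1, fun h => hx.2 (Subtype.ext h), x.2.2.1, fun t ht => ?_⟩
      by_cases h : t = t₀
      · simp only [if_pos h]; rw [h]; exact h1
      · simp only [if_neg h]
        exact x.2.2.2 t ((Finset.mem_insert.1 ht).resolve_left h)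
  haveI : Fintype G := Fintype.ofFinite _
  obtain ⟨f, v, h1, h2, h3, h4⟩ := key (Finset.univ.filter (fun t => t ∈ S.T)) (fun t ht => (Finset.mem_filter.1 ht).2)
  exact ⟨v, h1, h2, h3, fun t ht => ⟨f t, h4 t (Finset.mem_filter.2 ⟨Finset.mem_univ _, ht⟩)⟩⟩

/-- idempotents of defect zero -/
structure DZ (U : Subgroup G) (e : MonoidAlgebra k G) : Prop where
  cen : ∀ a, e * a = a * e
  idem : e * e = e
  ne : e ≠ 0
  conj : ∀ x g : G, e.coeff (g * x * g⁻¹) = e.coeff x
  supp : ∀ x : G, e.coeff x ≠ 0 → ∀ u ∈ U, u * x * u⁻¹ = x → u = 1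

lemma exists_SP {e : MonoidAlgebra k G} (he : DZ S.U e) : ∃ I : Submodule (MonoidAlgebra k G) (MonoidAlgebra k G), SP S.U I ∧ ∀ v ∈ I, e * v = v := by
  haveI : IsArtinianRing (MonoidAlgebra k G) := IsArtinianRing.of_finite k _
  let J : Submodule (MonoidAlgebra k G) (MonoidAlgebra k G) :=
    { carrier := {v | e * v = v}
      add_mem' := fun {a b} ha hb => by
        have ha' : e * a = a := ha
        have hb' : e * b = b := hb
        show e * (a + b) = a + b
        rw [mul_add, ha', hb']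
      zero_mem' := mul_zero _
      smul_mem' := fun c a ha => by
        have ha' : e * a = a := ha
        show e * (c * a) = c * a
        rw [← mul_assoc, he.cen c, mul_assoc, ha'] }
  have hJ : J ≠ ⊥ := by
    intro h
    have : e ∈ J := he.idem
    rw [h, Submodule.mem_bot] at this
    exact he.ne this
  rcases eq_bot_or_exists_atom_le J with h | ⟨I, hI, hIJ⟩
  · exact absurd h hJ
  refine ⟨I, ⟨hI, fun v hv hu => ?_⟩, fun v hv => hIJ hv⟩
  obtain ⟨a, ha⟩ := exists_hat he.conj he.supp hu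
  exact ⟨a, (hIJ hv : e * v = v).symm.trans ha⟩

/-- the sum over the big cell -/
lemma cell2 {v v' : MonoidAlgebra k G} (hv : ∀ u ∈ S.U, o k u * v = v) (ht : ∀ t ∈ S.T, o k t * v = v)
    (hv' : ∀ u ∈ S.U, o k u * v' = v') (ht' : ∀ t ∈ S.T, o k t * v' = v') (a : MonoidAlgebra k G) :
    ∃ c : k, hat k S.U * (a * v) = c • (hat k S.U * (o k S.w * v)) ∧ hat k S.U * (a * v') = c • (hat k S.U * (o k S.w * v')) := by
  have e3 : ∀ u ∈ S.U, hat k S.U * o k u = hat k S.U := by
    intro u hu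
    letI := Fintype.ofFinite S.U
    rw [hat_eq, Finset.sum_mul, ← Equiv.sum_comp (Equiv.mulRight (⟨u, hu⟩ : S.U)) (fun u : S.U => o k (u : G))]
    exact Finset.sum_congr rfl fun x _ => (o_mul _ _).symm
  induction a using MonoidAlgebra.induction_on with
  | of g =>
    rcases S.cases g with ⟨u, hu, t, htT, u', hu', rfl⟩ | ⟨x, hx, hx1, hg⟩
    · have key : ∀ z : MonoidAlgebra k G, (∀ u ∈ S.U, o k u * z = z) → (∀ t ∈ S.T, o k t * z = z) →
          hat k S.U * (o k (u * t * S.w * u') * z) = (1 : k) • (hat k S.U * (o k S.w * z)) := by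
        intro z hz hz'
        have e1 : o k (u * t * S.w * u') * z = o k u * (o k t * (o k S.w * z)) := by
          rw [o_mul, mul_assoc, hz _ hu', o_mul, o_mul, mul_assoc, mul_assoc]
        have e2 : o k t * (o k S.w * z) = (o k S.w * z) := by
          rw [← mul_assoc, ← o_mul]
          have : t * S.w = S.w * (S.w⁻¹ * t * S.w) := by group
          rw [this, o_mul, mul_assoc, hz' _ (S.wT t htT)]
        rw [e1, e2, ← mul_assoc, e3 u hu, one_smul]
      exact ⟨1, key v hv ht, key v' hv' ht'⟩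
    · refine ⟨0, ?_, ?_⟩
      · rw [zero_smul]; exact hat_small S.hU hx hx1 hg hv
      · rw [zero_smul]; exact hat_small S.hU hx hx1 hg hv'
  | add a b ha hb =>
    obtain ⟨c, hc, hc'⟩ := ha
    obtain ⟨d, hd, hd'⟩ := hb
    exact ⟨c + d, by rw [add_mul, mul_add, hc, hd, add_smul], by rw [add_mul, mul_add, hc', hd', add_smul]⟩
  | smul r a ha =>
    obtain ⟨c, hc, hc'⟩ := ha
    exact ⟨r * c, by rw [smul_mul_assoc, mul_smul_comm, hc, mul_smul], by rw [smul_mul_assoc, mul_smul_comm, hc', mul_smul]⟩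

omit [CharP k p] in
lemma t_fix {ι : Type*} {F : Type*} [Field F] {h : ι → Fˣ →* G}
    (hgen : ∀ t ∈ S.T, t ∈ Subgroup.closure (⋃ j, Set.range (h j))) {v : MonoidAlgebra k G} (hv : ∀ j b, o k (h j b) * v = v) :
    ∀ t ∈ S.T, o k t * v = v := by
  intro t ht
  have h1 := hgen t ht
  clear ht
  induction h1 using Subgroup.closure_induction with
  | mem y hy =>
    obtain ⟨j, b, rfl⟩ := Set.mem_iUnion.1 hy
    exact hv j b
  | one => rw [o_one, one_mul]
  | mul a b _ _ ha hb => rw [o_mul, mul_assoc, hb, ha]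
  | inv a _ ha =>
    have h2 : o k a⁻¹ * (o k a * v) = v := by rw [← mul_assoc, ← o_mul, inv_mul_cancel, o_one, one_mul]
    rw [ha] at h2
    exact h2

theorem no_two [IsAlgClosed k] {ι : Type*} {F : Type*} [Field F] [Finite F] [CharP F p] {x : ι → F → G} {h : ι → Fˣ →* G} {n : ι → G}
    (R : ∀ j, RK S F (x j) (h j) (n j)) (hgen : ∀ t ∈ S.T, t ∈ Subgroup.closure (⋃ j, Set.range (h j)))
    {e e' : MonoidAlgebra k G} (he : DZ S.U e) (he' : DZ S.U e') (hee : e * e' = 0) : False := by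
  obtain ⟨I, hI, hIe⟩ := exists_SP he
  obtain ⟨I', hI', hIe'⟩ := exists_SP he'
  obtain ⟨v, hv⟩ := exists_eig (S := S) hI.at_.1
  obtain ⟨v', hv'⟩ := exists_eig (S := S) hI'.at_.1
  have ht := t_fix hgen (fun j b => rank_one hI hv (R j) b)
  have ht' := t_fix hgen (fun j b => rank_one hI' hv' (R j) b)
  obtain ⟨b, hb⟩ := hI.proj v hv.mem hv.fix
  obtain ⟨c, hc, hc'⟩ := cell2 hv.fix ht hv'.fix ht' (e * b)
  have e1 : e * b * v = b * v := by rw [he.cen b, mul_assoc, hIe v hv.mem]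
  have e2 : e * b * v' = 0 := by
    rw [he.cen b, mul_assoc, ← hIe' v' hv'.mem, ← mul_assoc e, hee, zero_mul, mul_zero]
  rw [e1, ← hb] at hc
  rw [e2, mul_zero] at hc'
  rcases smul_eq_zero.1 hc'.symm with h1 | h1
  · rw [h1, zero_smul] at hc
    exact hv.ne hc
  · exact big_ne hI' hv' h1

end

section blocks

open Cfsg Cfsg.Agent.H11 Cfsg.Agent.H26

variable {G : Type*} [Group G] [Finite G] {p : ℕ} [Fact p.Prime] {M : Ideal AlgInt}

lemma bot_defect (hM : IsPModular p M) {χ : IrrCharacter G} (h0 : ¬ p ∣ Nat.card G / charDegree (χ : G → ℂ)) :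
    IsDefectGroup p M ({χ} : Set (IrrCharacter G)) (⊥ : Subgroup G) := by
  haveI : Fintype G := Fintype.ofFinite _
  have hpr := hM.2.1.isPrime
  have hB0 := (Cfsg.Agent.S0914.result p M hM χ).1 h0
  have hB : IsPBlock M ({χ} : Set (IrrCharacter G)) := ⟨χ, hB0.symm⟩
  obtain ⟨D, hD⟩ := exists_isDefectGroup hM hB
  have h1 := card_defect hM hB hD
  have h2 : blockDefect p ({χ} : Set (IrrCharacter G)) = 0 := by
    unfold blockDefect
    rw [Set.image_singleton, csInf_singleton]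
    obtain ⟨n, hn, h6, h7⟩ : ∃ n : ℕ, charDegree (χ : G → ℂ) = n ∧ n ∣ Nat.card G ∧ n ≠ 0 := ⟨_, rfl, Cfsg.Agent.H27.charDegree_dvd_card χ.2, (charDegree_spec χ.2).2⟩
    rw [hn] at h0 ⊢
    obtain ⟨c, hc⟩ := h6
    rw [hc, Nat.mul_div_cancel_left _ (Nat.pos_of_ne_zero h7)] at h0
    have hc0 : c ≠ 0 := by rintro rfl; exact h0 (dvd_zero _)
    rw [hc, Nat.factorization_mul h7 hc0, Finsupp.add_apply, Nat.factorization_eq_zero_of_not_dvd h0]
    simp
  rw [h2, pow_zero, Subgroup.card_eq_one] at h1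
  rwa [h1] at hD

lemma dz_EG [hpr : M.IsPrime] (hM : IsPModular p M) {χ : IrrCharacter G} (h0 : ¬ p ∣ Nat.card G / charDegree (χ : G → ℂ))
    {U : Subgroup G} (hU : IsPGroup p U) : DZ U (EG M ({χ} : Set (IrrCharacter G))) := by
  haveI : Fintype G := Fintype.ofFinite _
  have hB0 := (Cfsg.Agent.S0914.result p M hM χ).1 h0
  have hB : IsPBlock M ({χ} : Set (IrrCharacter G)) := ⟨χ, hB0.symm⟩
  refine ⟨fun a => Zc_commute (EG_mem_Zc _) (isSup_top a), (isBlk_EG hB).idem, (isBlk_EG hB).ne_zero,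
    fun x g => (isFx_iff_coeff.1 (EG_isFx ({χ} : Set (IrrCharacter G)) ⊤)) g (Subgroup.mem_top _) x, fun x hx u hu hux => ?_⟩
  have h1 : ¬ MemLocalIdeal M (blockCoeff ({χ} : Set (IrrCharacter G)) x) := by
    intro h
    apply hx
    rw [coeff_EG]
    exact (rd_eq_zero_iff (lr_blockCoeff hB x)).2 h
  have h2 : IsPGroup p (Subgroup.zpowers u) := hU.to_le ((Subgroup.zpowers_le).2 hu)
  have h3 : Subgroup.zpowers u ≤ C1 x := by
    rw [Subgroup.zpowers_le, mem_C1]
    exact mul_inv_eq_iff_eq_mul.1 hux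
  obtain ⟨c, hc⟩ := exists_conj_le_defect hM hB (bot_defect hM h0) h1 h2 h3
  have h4 := hc (Subgroup.mem_zpowers u)
  rw [Cfsg.Agent.L.mem_cj, Subgroup.mem_bot] at h4
  have : u = c * (c⁻¹ * u * c) * c⁻¹ := by group
  rw [this, h4]; group

/-- at most one character of defect zero -/
theorem uniq_dz (hM : IsPModular p M) {S : Big G p} {ι : Type*} {F : Type*} [Field F] [Finite F] [CharP F p] {x : ι → F → G} {h : ι → Fˣ →* G} {n : ι → G}
    (R : ∀ j, RK S F (x j) (h j) (n j)) (hgen : ∀ t ∈ S.T, t ∈ Subgroup.closure (⋃ j, Set.range (h j)))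
    (χ χ' : IrrCharacter G) (h0 : ¬ p ∣ Nat.card G / charDegree (χ : G → ℂ)) (h0' : ¬ p ∣ Nat.card G / charDegree (χ' : G → ℂ)) : χ = χ' := by
  haveI : Fintype G := Fintype.ofFinite _
  haveI hpr := hM.2.1.isPrime
  haveI : CharP (KF M) p := charP_KF hM
  by_contra hne
  have hB : IsPBlock M ({χ} : Set (IrrCharacter G)) := ⟨χ, ((Cfsg.Agent.S0914.result p M hM χ).1 h0).symm⟩
  have hB' : IsPBlock M ({χ'} : Set (IrrCharacter G)) := ⟨χ', ((Cfsg.Agent.S0914.result p M hM χ').1 h0').symm⟩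
  refine no_two (k := KF M) R hgen (dz_EG hM h0 S.hU) (dz_EG hM h0' S.hU) ((isBlk_EG hB).mul_of_ne (isBlk_EG hB') ?_)
  intro h1
  exact hne (Set.singleton_injective (EG_injective hB hB' h1))

end blocks

end Cfsg.Agent.LSt
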