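import Mathlib
import Cfsg.Agent.L.StC2
import Cfsg.Agent.H16.FlagB

set_option autoImplicit false

/-! Big cell and rank one data for `SL_n`. -/

namespace Cfsg.Agent.LSt

open Matrix

variable {m : ℕ} {F : Type*} [Field F]

abbrev SL (m : ℕ) (F : Type*) [Field F] := Matrix.SpecialLinearGroup (Fin (m + 1)) F

def ii (j : Fin m) : Matrix (Fin (m + 1)) (Fin 2) F :=
  Matrix.of fun i a => if i = (![j.castSucc, j.succ] : Fin 2 → Fin (m + 1)) a then 1 else 0

lemma cs_ne (j : Fin m) : j.castSucc ≠ j.succ := (Fin.castSucc_lt_succ (i := j)).ne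

lemma ii_tr (j : Fin m) : (ii (F := F) j)ᵀ * ii (F := F) j = 1 := by
  ext a b
  rw [Matrix.mul_apply, Matrix.one_apply]
  simp only [ii, Matrix.transpose_apply, Matrix.of_apply, ite_mul, one_mul, zero_mul]
  rw [Finset.sum_ite_eq' Finset.univ]
  have := cs_ne j
  fin_cases a <;> fin_cases b <;> simp [this, this.symm]

def embM (j : Fin m) (A : Matrix (Fin 2) (Fin 2) F) : Matrix (Fin (m + 1)) (Fin (m + 1)) F :=
  1 + ii (F := F) j * (A - 1) * (ii (F := F) j)ᵀ

lemma embM_mul (j : Fin m) (A B : Matrix (Fin 2) (Fin 2) F) : embM j (A * B) = embM j A * embM j B := by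
  unfold embM
  have h := ii_tr (F := F) j
  have e1 : ii (F := F) j * (A - 1) * (ii (F := F) j)ᵀ * (ii (F := F) j * (B - 1) * (ii (F := F) j)ᵀ) = ii (F := F) j * ((A - 1) * (B - 1)) * (ii (F := F) j)ᵀ := by
    calc _ = ii (F := F) j * (A - 1) * ((ii (F := F) j)ᵀ * ii (F := F) j) * (B - 1) * (ii (F := F) j)ᵀ := by simp only [Matrix.mul_assoc]
      _ = _ := by rw [h, Matrix.mul_one]; simp only [Matrix.mul_assoc]
  rw [add_mul, mul_add, mul_add, e1, one_mul, mul_one, one_mul]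
  have e2 : A * B - 1 = (A - 1) + (B - 1) + (A - 1) * (B - 1) := by noncomm_ring
  rw [e2, Matrix.mul_add, Matrix.mul_add, Matrix.add_mul, Matrix.add_mul]
  abel

lemma embM_one (j : Fin m) : embM (F := F) j 1 = 1 := by
  unfold embM; rw [sub_self, Matrix.mul_zero, Matrix.zero_mul, add_zero]

lemma embM_det (j : Fin m) (A : Matrix (Fin 2) (Fin 2) F) : (embM j A).det = A.det := by
  unfold embM
  rw [Matrix.det_one_add_mul_comm, ← Matrix.mul_assoc, ii_tr, Matrix.one_mul]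
  congr 1
  abel

lemma embM_apply (j : Fin m) (A : Matrix (Fin 2) (Fin 2) F) (i k : Fin (m + 1)) :
    embM j A i k = (if i = k then 1 else 0) +
      ((if i = j.castSucc then 1 else 0) * ((A 0 0 - 1) * (if k = j.castSucc then 1 else 0) + A 0 1 * (if k = j.succ then 1 else 0)) +
       (if i = j.succ then 1 else 0) * (A 1 0 * (if k = j.castSucc then 1 else 0) + (A 1 1 - 1) * (if k = j.succ then 1 else 0))) := by
  unfold embM
  rw [Matrix.add_apply, Matrix.one_apply, Matrix.mul_apply]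
  congr 1
  rw [Fin.sum_univ_two, Matrix.mul_apply, Matrix.mul_apply, Fin.sum_univ_two, Fin.sum_univ_two]
  simp only [ii, Matrix.of_apply, Matrix.transpose_apply, Matrix.sub_apply, Matrix.one_apply]
  have hc := cs_ne j
  by_cases h1 : i = j.castSucc
  · have h2 : i ≠ j.succ := h1 ▸ hc
    by_cases h3 : k = j.castSucc
    · have h4 : k ≠ j.succ := h3 ▸ hc
      simp [h1, h3, hc]
    · simp [h1, h3, hc]
  · by_cases h3 : k = j.castSucc
    · have h4 : k ≠ j.succ := h3 ▸ hc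
      by_cases h2 : i = j.succ
      · simp [h2, h3, hc, hc.symm]
      · simp [h1, h2, h3, hc]
    · by_cases h2 : i = j.succ
      · simp [h2, h3, hc.symm]
      · simp [h1, h2]

def emb (j : Fin m) : Matrix.SpecialLinearGroup (Fin 2) F →* SL m F where
  toFun A := ⟨embM j A.1, by rw [embM_det]; exact A.2⟩
  map_one' := Subtype.ext (embM_one j)
  map_mul' A B := Subtype.ext (embM_mul j A.1 B.1)

lemma emb_coe (j : Fin m) (A : Matrix.SpecialLinearGroup (Fin 2) F) : ((emb j A : SL m F) : Matrix _ _ F) = embM j A.1 := rfl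

def x2 (c : F) : Matrix.SpecialLinearGroup (Fin 2) F := ⟨!![1, c; 0, 1], by simp [Matrix.det_fin_two]⟩
def n2 : Matrix.SpecialLinearGroup (Fin 2) F := ⟨!![0, 1; -1, 0], by simp [Matrix.det_fin_two]⟩
def h2 : Fˣ →* Matrix.SpecialLinearGroup (Fin 2) F where
  toFun b := ⟨!![(b : F), 0; 0, ((b⁻¹ : Fˣ) : F)], by simp [Matrix.det_fin_two]⟩
  map_one' := by
    apply Subtype.ext
    ext i j; fin_cases i <;> fin_cases j <;> simp
  map_mul' a b := by
    apply Subtype.ext
    show _ = !![(a : F), 0; 0, ((a⁻¹ : Fˣ) : F)] * !![(b : F), 0; 0, ((b⁻¹ : Fˣ) : F)]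
    ext i j; fin_cases i <;> fin_cases j <;> simp [mul_comm]

lemma x2_add (a b : F) : x2 (a + b) = x2 a * x2 b := by
  apply Subtype.ext
  show !![1, a + b; 0, 1] = !![1, a; 0, 1] * !![1, b; 0, 1]
  ext i j; fin_cases i <;> fin_cases j <;> simp [add_comm]

lemma rel2 (b : Fˣ) : n2 * x2 (-((b⁻¹ : Fˣ) : F)) * n2 = x2 (b : F) * h2 b * n2 * x2 (b : F) := by
  apply Subtype.ext
  show !![0, 1; -1, 0] * !![1, -((b⁻¹ : Fˣ) : F); 0, 1] * !![0, 1; -1, 0] =
    !![1, (b : F); 0, 1] * !![(b : F), 0; 0, ((b⁻¹ : Fˣ) : F)] * !![0, 1; -1, 0] * !![1, (b : F); 0, 1]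
  ext i j; fin_cases i <;> fin_cases j <;> simp

lemma hx2 (b : Fˣ) (c : F) : h2 b * x2 c = x2 ((b : F) ^ 2 * c) * h2 b := by
  apply Subtype.ext
  show !![(b : F), 0; 0, ((b⁻¹ : Fˣ) : F)] * !![1, c; 0, 1] = !![1, (b : F) ^ 2 * c; 0, 1] * !![(b : F), 0; 0, ((b⁻¹ : Fˣ) : F)]
  have hb := b.ne_zero
  ext i j; fin_cases i <;> fin_cases j <;> simp <;> field_simp

lemma nxn2 (e : F) : (((n2 : Matrix.SpecialLinearGroup (Fin 2) F)⁻¹ * x2 e * n2 : Matrix.SpecialLinearGroup (Fin 2) F) : Matrix (Fin 2) (Fin 2) F) = !![1, 0; -e, 1] := by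
  obtain ⟨Z, hZ⟩ : ∃ Z : Matrix.SpecialLinearGroup (Fin 2) F, Z.1 = !![1, 0; -e, 1] := ⟨⟨!![1, 0; -e, 1], by simp [Matrix.det_fin_two]⟩, rfl⟩
  have h1 : (n2 : Matrix.SpecialLinearGroup (Fin 2) F) * Z = x2 e * n2 := by
    apply Subtype.ext
    show !![0, 1; -1, 0] * Z.1 = !![1, e; 0, 1] * !![0, 1; -1, 0]
    rw [hZ]
    ext i j; fin_cases i <;> fin_cases j <;> simp
  have h2 : (n2 : Matrix.SpecialLinearGroup (Fin 2) F)⁻¹ * x2 e * n2 = Z := by
    rw [mul_assoc, ← h1, inv_mul_cancel_left]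
  rw [h2]
  exact hZ

/-- conjugation by monomial matrices -/
lemma conj_mono (M A : SL m F) (σ : Fin (m + 1) → Fin (m + 1)) (hσ : Function.Bijective σ) (ε : Fin (m + 1) → F) (hε : ∀ i, ε i ≠ 0)
    (hM : ∀ i k, M.1 i k = if i = σ k then ε k else 0) (i k : Fin (m + 1)) :
    (M⁻¹ * A * M : SL m F).1 i k = (ε i)⁻¹ * A.1 (σ i) (σ k) * ε k := by
  let B : Matrix (Fin (m + 1)) (Fin (m + 1)) F := Matrix.of fun i k => (ε i)⁻¹ * A.1 (σ i) (σ k) * ε k
  have h1 : A.1 * M.1 = M.1 * B := by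
    ext i k
    rw [Matrix.mul_apply, Matrix.mul_apply, Finset.sum_eq_single (σ k)]
    · obtain ⟨l, rfl⟩ := hσ.2 i
      rw [Finset.sum_eq_single l]
      · rw [hM, hM, if_pos rfl, if_pos rfl]
        show _ = ε l * ((ε l)⁻¹ * A.1 (σ l) (σ k) * ε k)
        rw [← mul_assoc, mul_inv_cancel_left₀ (hε l)]
      · intro b _ hb
        rw [hM, if_neg (fun h => hb (hσ.1 h).symm), zero_mul]
      · intro h; exact absurd (Finset.mem_univ _) h
    · intro b _ hb
      rw [hM, if_neg hb, mul_zero]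
    · intro h; exact absurd (Finset.mem_univ _) h
  have h2 : (M⁻¹ * A * M : SL m F).1 = (M⁻¹ : SL m F).1 * (A.1 * M.1) := by
    rw [mul_assoc]; rfl
  have h3 : (M⁻¹ : SL m F).1 * M.1 = 1 := by
    have : (M⁻¹ * M : SL m F).1 = 1 := by rw [inv_mul_cancel]; rfl
    exact this
  rw [h2, h1, ← Matrix.mul_assoc, h3, Matrix.one_mul]
  rfl

/-- upper unitriangular -/
def Uni (A : Matrix (Fin (m + 1)) (Fin (m + 1)) F) : Prop := ∀ i k, k ≤ i → A i k = if i = k then 1 else 0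

lemma Uni.bt {A : Matrix (Fin (m + 1)) (Fin (m + 1)) F} (h : Uni A) : A.BlockTriangular id := by
  intro i k hik
  have hik' : k < i := hik
  rw [h i k hik'.le, if_neg hik'.ne']

lemma uni_iff {A : Matrix (Fin (m + 1)) (Fin (m + 1)) F} : Uni A ↔ A.BlockTriangular id ∧ ∀ i, A i i = 1 := by
  constructor
  · intro h
    exact ⟨h.bt, fun i => by rw [h i i le_rfl, if_pos rfl]⟩
  · rintro ⟨h1, h2⟩ i k hki
    rcases hki.lt_or_eq with h | h
    · rw [if_neg h.ne', h1 h]
    · rw [if_pos h.symm, h, h2]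

lemma bt_diag {A B : Matrix (Fin (m + 1)) (Fin (m + 1)) F} (hA : A.BlockTriangular id) (hB : B.BlockTriangular id) (i : Fin (m + 1)) :
    (A * B) i i = A i i * B i i := by
  rw [Matrix.mul_apply, Finset.sum_eq_single i]
  · intro b _ hb
    rcases lt_or_gt_of_ne hb with h | h
    · rw [hA h, zero_mul]
    · rw [hB h, mul_zero]
  · intro h; exact absurd (Finset.mem_univ _) h

lemma Uni.mul {A B : Matrix (Fin (m + 1)) (Fin (m + 1)) F} (hA : Uni A) (hB : Uni B) : Uni (A * B) := by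
  rw [uni_iff] at *
  exact ⟨hA.1.mul hB.1, fun i => by rw [bt_diag hA.1 hB.1, hA.2, hB.2, mul_one]⟩

lemma uni_one : Uni (1 : Matrix (Fin (m + 1)) (Fin (m + 1)) F) := fun i k _ => Matrix.one_apply

lemma sl_inv (g : SL m F) : (g⁻¹ : SL m F).1 = g.1⁻¹ := by
  symm
  apply Matrix.inv_eq_right_inv
  have : (g * g⁻¹ : SL m F).1 = 1 := by rw [mul_inv_cancel]; rfl
  exact this

lemma bt_inv {g : SL m F} (h : g.1.BlockTriangular id) : (g⁻¹ : SL m F).1.BlockTriangular id := by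
  rw [sl_inv]
  haveI : Invertible g.1 := g.1.invertibleOfIsUnitDet (by rw [g.2]; exact isUnit_one)
  exact Matrix.blockTriangular_inv_of_blockTriangular h

def UU (m : ℕ) (F : Type*) [Field F] : Subgroup (SL m F) where
  carrier := {g | Uni g.1}
  mul_mem' ha hb := Uni.mul ha hb
  one_mem' := uni_one
  inv_mem' {g} hg := by
    have h1 := bt_inv (Uni.bt hg)
    refine uni_iff.2 ⟨h1, fun i => ?_⟩
    have h2 := bt_diag h1 (Uni.bt hg) i
    have h3 : (g⁻¹ : SL m F).1 * g.1 = 1 := by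
      have : (g⁻¹ * g : SL m F).1 = 1 := by rw [inv_mul_cancel]; rfl
      exact this
    rw [h3, Matrix.one_apply_eq, (uni_iff.1 hg).2, mul_one] at h2
    exact h2.symm

lemma mem_UU {g : SL m F} : g ∈ UU m F ↔ Uni g.1 := Iff.rfl

lemma UU_p (p : ℕ) [Fact p.Prime] [CharP F p] : IsPGroup p (UU m F) := by
  rintro ⟨g, hg⟩
  have h1 : (g.1 - 1) ^ (m + 1) = 0 := by
    have h2 := Matrix.aeval_self_charpoly g.1
    rw [Matrix.charpoly_of_upperTriangular g.1 (Uni.bt hg)] at h2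
    simp only [(uni_iff.1 hg).2, Finset.prod_const, Finset.card_univ, Fintype.card_fin] at h2
    simpa using h2
  obtain ⟨r, hr⟩ : ∃ r : ℕ, m + 1 ≤ p ^ r := ⟨m + 1, (Nat.lt_pow_self (Fact.out : p.Prime).one_lt).le⟩
  refine ⟨r, Subtype.ext (Subtype.ext ?_)⟩
  show (((⟨g, hg⟩ : UU m F) ^ p ^ r : UU m F) : SL m F).1 = 1
  rw [Subgroup.coe_pow]
  have h3 : ((g ^ p ^ r : SL m F)).1 = g.1 ^ p ^ r := Matrix.SpecialLinearGroup.coe_pow _ _
  rw [h3]
  have h4 : g.1 = 1 + (g.1 - 1) := by abel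
  rw [h4, add_pow_char_pow_of_commute _ _ (Commute.one_left _), one_pow]
  have h5 : (g.1 - 1) ^ p ^ r = 0 := by
    rw [← Nat.add_sub_cancel' hr, pow_add, h1, zero_mul]
  rw [h5, add_zero]

def TT (m : ℕ) (F : Type*) [Field F] : Subgroup (SL m F) where
  carrier := {g | ∀ i k, i ≠ k → g.1 i k = 0}
  mul_mem' {a b} ha hb i k hik := by
    show (a.1 * b.1) i k = 0
    rw [Matrix.mul_apply]
    apply Finset.sum_eq_zero
    intro l _
    by_cases h : i = l
    · rw [hb l k (h ▸ hik), mul_zero]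
    · rw [ha i l h, zero_mul]
  one_mem' i k hik := Matrix.one_apply_ne hik
  inv_mem' {g} hg i k hik := by
    have hg' : ∀ i k, i ≠ k → g.1 i k = 0 := hg
    have h3 : g.1 * (g⁻¹ : SL m F).1 = 1 := by
      have : (g * g⁻¹ : SL m F).1 = 1 := by rw [mul_inv_cancel]; rfl
      exact this
    have h5 : ∀ k, (g.1 * (g⁻¹ : SL m F).1) i k = g.1 i i * (g⁻¹ : SL m F).1 i k := by
      intro k
      rw [Matrix.mul_apply, Finset.sum_eq_single i]
      · intro b _ hb; rw [hg' i b (Ne.symm hb), zero_mul]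
      · intro h; exact absurd (Finset.mem_univ _) h
    have h6 := h5 i
    have h7 := h5 k
    rw [h3, Matrix.one_apply_eq] at h6
    rw [h3, Matrix.one_apply_ne hik] at h7
    rcases mul_eq_zero.1 h7.symm with h | h
    · rw [h, zero_mul] at h6; exact absurd h6 one_ne_zero
    · exact h

lemma TT_ne {t : SL m F} (ht : t ∈ TT m F) (i : Fin (m + 1)) : t.1 i i ≠ 0 := by
  have h1 : t.1 = Matrix.diagonal (fun i => t.1 i i) := by
    ext i k
    by_cases h : i = k
    · subst h; rw [Matrix.diagonal_apply_eq]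
    · rw [Matrix.diagonal_apply_ne _ h, ht i k h]
  have h2 := t.2
  rw [h1, Matrix.det_diagonal] at h2
  intro h
  exact zero_ne_one ((Finset.prod_eq_zero (f := fun i => t.1 i i) (Finset.mem_univ i) h).symm.trans h2)

lemma TT_mono {t : SL m F} (ht : t ∈ TT m F) (i k : Fin (m + 1)) : t.1 i k = if i = id k then t.1 k k else 0 := by
  show t.1 i k = if i = k then t.1 k k else 0
  by_cases h : i = k
  · subst h; simp
  · rw [if_neg h]; exact ht i k h

lemma TT_eq {t : SL m F} (ht : t ∈ TT m F) : t.1 = Matrix.diagonal (fun i => t.1 i i) := by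
  ext i k
  by_cases h : i = k
  · subst h; rw [Matrix.diagonal_apply_eq]
  · rw [Matrix.diagonal_apply_ne _ h, ht i k h]

lemma TT_comm (s : SL m F) (hs : s ∈ TT m F) (t : SL m F) (ht : t ∈ TT m F) : s * t = t * s := by
  apply Subtype.ext
  show s.1 * t.1 = t.1 * s.1
  rw [TT_eq hs, TT_eq ht, Matrix.diagonal_mul_diagonal, Matrix.diagonal_mul_diagonal]
  congr 1
  ext i
  exact mul_comm _ _

lemma TT_norm (t : SL m F) (ht : t ∈ TT m F) (u : SL m F) (hu : u ∈ UU m F) : t⁻¹ * u * t ∈ UU m F := by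
  rw [mem_UU]
  intro i k hki
  rw [conj_mono t u id Function.bijective_id (fun k => t.1 k k) (TT_ne ht) (TT_mono ht)]
  have := (mem_UU.1 hu) i k hki
  show (t.1 i i)⁻¹ * u.1 i k * t.1 k k = _
  rw [this]
  by_cases h : i = k
  · rw [if_pos h, mul_one, h]
    exact inv_mul_cancel₀ (TT_ne ht k)
  · rw [if_neg h, mul_zero, zero_mul]

/-- the longest element -/
noncomputable def ww (m : ℕ) (F : Type*) [Field F] : SL m F :=
  ⟨Cfsg.Agent.H16.pmM (m + 1) F Fin.revPerm * Matrix.diagonal (fun k => if k = 0 then (Cfsg.Agent.H16.pmM (m + 1) F Fin.revPerm).det⁻¹ else 1), by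
    rw [Matrix.det_mul, Matrix.det_diagonal, Finset.prod_ite_eq' Finset.univ]
    rw [if_pos (Finset.mem_univ _)]
    apply mul_inv_cancel₀
    have h1 : Cfsg.Agent.H16.pmM (m + 1) F Fin.revPerm * Cfsg.Agent.H16.pmM (m + 1) F (Fin.revPerm)⁻¹ = 1 := by
      rw [← map_mul, mul_inv_cancel, map_one]
    intro h0
    have h2 := congrArg Matrix.det h1
    rw [Matrix.det_mul, h0, zero_mul, Matrix.det_one] at h2
    exact zero_ne_one h2⟩

noncomputable def we (m : ℕ) (F : Type*) [Field F] (k : Fin (m + 1)) : F :=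
  if k = 0 then (Cfsg.Agent.H16.pmM (m + 1) F Fin.revPerm).det⁻¹ else 1

lemma ww_apply (i k : Fin (m + 1)) : (ww m F).1 i k = if i = Fin.rev k then we m F k else 0 := by
  show (Cfsg.Agent.H16.pmM (m + 1) F Fin.revPerm * Matrix.diagonal (fun k => if k = 0 then (Cfsg.Agent.H16.pmM (m + 1) F Fin.revPerm).det⁻¹ else 1) : Matrix (Fin (m + 1)) (Fin (m + 1)) F) i k = _
  rw [Matrix.mul_diagonal]
  show (if i = Fin.revPerm k then (1 : F) else 0) * we m F k = _
  rw [Fin.revPerm_apply]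
  by_cases h : i = Fin.rev k
  · simp only [if_pos h, one_mul]
  · simp only [if_neg h, zero_mul]

lemma we_ne (k : Fin (m + 1)) : we m F k ≠ 0 := by
  intro h
  have h1 : (ww m F).1.det = 0 := by
    apply Matrix.det_eq_zero_of_column_eq_zero k
    intro i
    rw [ww_apply, h, ite_self]
  rw [(ww m F).2] at h1
  exact one_ne_zero h1

lemma wT (t : SL m F) (ht : t ∈ TT m F) : (ww m F)⁻¹ * t * ww m F ∈ TT m F := by
  intro i k hik
  rw [conj_mono (ww m F) t Fin.rev Fin.rev_bijective (we m F) we_ne ww_apply, ht _ _ (fun h => hik (Fin.rev_injective h)), mul_zero, zero_mul]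

end Cfsg.Agent.LSt
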