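import Mathlib
import Cfsg.Agent.L.StC4

set_option autoImplicit false

/-! Big cell and rank one data for `SL_n`, continued. -/

namespace Cfsg.Agent.LSt

open Matrix

variable {m : ℕ} {F : Type*} [Field F]

lemma coe_mul' (a b : SL m F) : (a * b : SL m F).1 = a.1 * b.1 := rfl

/-- conjugates of elementary matrices by triangular matrices -/
lemma uni_conj {c d : Matrix (Fin (m + 1)) (Fin (m + 1)) F} (hc : c.BlockTriangular id) (hd : d.BlockTriangular id) {a b : Fin (m + 1)} (hab : a < b) :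
    Uni (1 + c * Matrix.single a b (1 : F) * d) := by
  intro i k hki
  rw [Matrix.add_apply, Matrix.one_apply]
  have h1 : (c * Matrix.single a b (1 : F) * d) i k = c i a * d b k := by
    rw [Matrix.mul_apply, Finset.sum_eq_single b]
    · rw [Matrix.mul_apply, Finset.sum_eq_single a]
      · simp
      · intro l _ hl
        rw [Matrix.single_apply, if_neg (fun h => hl h.1.symm), mul_zero]
      · intro h; exact absurd (Finset.mem_univ _) h
    · intro l _ hl
      rw [Matrix.mul_apply, Finset.sum_eq_zero, zero_mul]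
      intro r _
      rw [Matrix.single_apply, if_neg (fun h => hl h.2.symm), mul_zero]
    · intro h; exact absurd (Finset.mem_univ _) h
  rw [h1]
  have h2 : c i a * d b k = 0 := by
    by_cases h : i ≤ a
    · have h3 : k < b := lt_of_le_of_lt (hki.trans h) hab
      rw [hd h3, mul_zero]
    · rw [hc (not_le.1 h), zero_mul]
  rw [h2, add_zero]

lemma det_conj_elem {c d : Matrix (Fin (m + 1)) (Fin (m + 1)) F} (hcd : c * d = 1) {a b : Fin (m + 1)} (hab : a ≠ b) :
    (1 + c * Matrix.single a b (1 : F) * d).det = 1 := by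
  have h1 : 1 + c * Matrix.single a b (1 : F) * d = c * Matrix.transvection a b (1 : F) * d := by
    unfold Matrix.transvection
    rw [Matrix.mul_add, Matrix.mul_one, Matrix.add_mul, hcd]
  rw [h1, Matrix.det_mul, Matrix.det_mul, Matrix.det_transvection_of_ne a b hab, mul_one, ← Matrix.det_mul, hcd, Matrix.det_one]

lemma ne_rev {w : Equiv.Perm (Fin (m + 1))} (hw : w ≠ Fin.revPerm) : ∃ a b, a < b ∧ w a < w b := by
  by_contra hcon
  push Not at hcon
  apply hw
  have h1 : StrictMono (fun i => Fin.rev (w i)) := by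
    intro a b hab
    rw [Fin.rev_lt_rev]
    exact lt_of_le_of_ne (hcon a b hab) (fun h => hab.ne' (w.injective h))
  have h2 : (fun i => Fin.rev (w i)) = id := by
    have h3 : Function.Surjective (fun i => Fin.rev (w i)) := Fin.rev_surjective.comp w.surjective
    have h4 : h1.orderIsoOfSurjective _ h3 = OrderIso.refl _ := Subsingleton.elim _ _
    funext i
    exact congrArg (fun e : Fin (m + 1) ≃o Fin (m + 1) => e i) h4
  ext i
  have h3 := congrFun h2 i
  have h4 : Fin.rev (w i) = i := h3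
  rw [Fin.revPerm_apply, ← h4, Fin.rev_rev, h4]

lemma sl_cases (g : SL m F) : (∃ u ∈ UU m F, ∃ t ∈ TT m F, ∃ u' ∈ UU m F, g = u * t * ww m F * u') ∨
    (∃ x ∈ UU m F, x ≠ 1 ∧ g⁻¹ * x * g ∈ UU m F) := by
  let G : GL (Fin (m + 1)) F := Matrix.SpecialLinearGroup.toGL g
  have hG : (G : Matrix (Fin (m + 1)) (Fin (m + 1)) F) = g.1 := rfl
  obtain ⟨b, hb, b', hb', w, hw⟩ := Cfsg.Agent.H16.gl_bruhat G
  obtain ⟨c, hc, hcb⟩ : ∃ c, c ∈ Cfsg.upperTriangularGL (m + 1) F ∧ c = b⁻¹ := ⟨b⁻¹, inv_mem hb, rfl⟩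
  obtain ⟨c', hc', hcb'⟩ : ∃ c', c' ∈ Cfsg.upperTriangularGL (m + 1) F ∧ c' = b'⁻¹ := ⟨b'⁻¹, inv_mem hb', rfl⟩
  have hg : G = c * Cfsg.Agent.H16.pm (m + 1) F w * c' := by
    rw [← hw, hcb, hcb']; group
  have hbt : (c : Matrix (Fin (m + 1)) (Fin (m + 1)) F).BlockTriangular id := hc
  have hbt' : (c' : Matrix (Fin (m + 1)) (Fin (m + 1)) F).BlockTriangular id := hc'
  have hbti : ((c⁻¹ : GL (Fin (m + 1)) F) : Matrix (Fin (m + 1)) (Fin (m + 1)) F).BlockTriangular id := inv_mem hc
  have hbti' : ((c'⁻¹ : GL (Fin (m + 1)) F) : Matrix (Fin (m + 1)) (Fin (m + 1)) F).BlockTriangular id := inv_mem hc'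
  have hcc : (c : Matrix (Fin (m + 1)) (Fin (m + 1)) F) * ((c⁻¹ : GL (Fin (m + 1)) F) : Matrix (Fin (m + 1)) (Fin (m + 1)) F) = 1 := by
    rw [← Units.val_mul, mul_inv_cancel]; rfl
  have hcc' : (c' : Matrix (Fin (m + 1)) (Fin (m + 1)) F) * ((c'⁻¹ : GL (Fin (m + 1)) F) : Matrix (Fin (m + 1)) (Fin (m + 1)) F) = 1 := by
    rw [← Units.val_mul, mul_inv_cancel]; rfl
  have hdc : ∀ i, (c : Matrix (Fin (m + 1)) (Fin (m + 1)) F) i i ≠ 0 := by
    intro i h
    have h1 := bt_diag hbt hbti i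
    rw [hcc, Matrix.one_apply_eq, h, zero_mul] at h1
    exact one_ne_zero h1
  have hdc' : ∀ i, (c' : Matrix (Fin (m + 1)) (Fin (m + 1)) F) i i ≠ 0 := by
    intro i h
    have h1 := bt_diag hbt' hbti' i
    rw [hcc', Matrix.one_apply_eq, h, zero_mul] at h1
    exact one_ne_zero h1
  by_cases hwr : w = Fin.revPerm
  · left
    -- the unitriangular parts
    let C : Matrix (Fin (m + 1)) (Fin (m + 1)) F := c
    let C' : Matrix (Fin (m + 1)) (Fin (m + 1)) F := c'
    let A : Matrix (Fin (m + 1)) (Fin (m + 1)) F := Matrix.of fun i k => C i k * (C k k)⁻¹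
    let A' : Matrix (Fin (m + 1)) (Fin (m + 1)) F := Matrix.of fun i k => (C' i i)⁻¹ * C' i k
    have hA : Uni A := by
      rw [uni_iff]
      exact ⟨fun i k h => by
        have h0 : C i k = 0 := hbt h
        show C i k * _ = 0
        rw [h0, zero_mul], fun i => mul_inv_cancel₀ (hdc i)⟩
    have hA' : Uni A' := by
      rw [uni_iff]
      exact ⟨fun i k h => by
        have h0 : C' i k = 0 := hbt' h
        show _ * C' i k = 0
        rw [h0, mul_zero], fun i => inv_mul_cancel₀ (hdc' i)⟩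
    have hdetA : A.det = 1 := by
      rw [Matrix.det_of_upperTriangular hA.bt]
      exact Finset.prod_eq_one fun i _ => (uni_iff.1 hA).2 i
    have hdetA' : A'.det = 1 := by
      rw [Matrix.det_of_upperTriangular hA'.bt]
      exact Finset.prod_eq_one fun i _ => (uni_iff.1 hA').2 i
    obtain ⟨u, hu⟩ : ∃ u : SL m F, u.1 = A := ⟨⟨A, hdetA⟩, rfl⟩
    obtain ⟨u', hu'⟩ : ∃ u : SL m F, u.1 = A' := ⟨⟨A', hdetA'⟩, rfl⟩
    have hC : C = A * Matrix.diagonal (fun i => C i i) := by
      ext i k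
      rw [Matrix.mul_diagonal]
      show C i k = C i k * (C k k)⁻¹ * C k k
      rw [inv_mul_cancel_right₀ (hdc k)]
    have hC' : C' = Matrix.diagonal (fun i => C' i i) * A' := by
      ext i k
      rw [Matrix.diagonal_mul]
      show C' i k = C' i i * ((C' i i)⁻¹ * C' i k)
      rw [mul_inv_cancel_left₀ (hdc' i)]
    let D : Fin (m + 1) → F := fun i => C i i * C' (Fin.rev i) (Fin.rev i) / we m F (Fin.rev i)
    have hgm : g.1 = A * (Matrix.diagonal D * (ww m F).1) * A' := by
      have h1 : g.1 = C * Cfsg.Agent.H16.pmM (m + 1) F w * C' := by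
        rw [← hG, hg]; rfl
      have h2 : Matrix.diagonal (fun i => C i i) * Cfsg.Agent.H16.pmM (m + 1) F w * Matrix.diagonal (fun i => C' i i) = Matrix.diagonal D * (ww m F).1 := by
        ext i k
        rw [Matrix.mul_diagonal, Matrix.diagonal_mul, Matrix.diagonal_mul, ww_apply, hwr]
        show C i i * (if i = Fin.revPerm k then 1 else 0) * C' k k = _
        rw [Fin.revPerm_apply]
        by_cases h : i = Fin.rev k
        · rw [if_pos h, if_pos h]
          show _ = C i i * C' (Fin.rev i) (Fin.rev i) / we m F (Fin.rev i) * we m F k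
          rw [h, Fin.rev_rev, div_mul_cancel₀ _ (we_ne k), mul_one]
        · rw [if_neg h, if_neg h, mul_zero, zero_mul, mul_zero]
      calc g.1 = C * Cfsg.Agent.H16.pmM (m + 1) F w * C' := h1
        _ = (A * Matrix.diagonal (fun i => C i i)) * Cfsg.Agent.H16.pmM (m + 1) F w * (Matrix.diagonal (fun i => C' i i) * A') := by rw [← hC, ← hC']
        _ = A * (Matrix.diagonal (fun i => C i i) * Cfsg.Agent.H16.pmM (m + 1) F w * Matrix.diagonal (fun i => C' i i)) * A' := by simp only [Matrix.mul_assoc]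
        _ = _ := by rw [h2]
    refine ⟨u, by rw [mem_UU, hu]; exact hA, u⁻¹ * g * u'⁻¹ * (ww m F)⁻¹, ?_, u', by rw [mem_UU, hu']; exact hA', by group⟩
    have h3 : (u⁻¹ * g * u'⁻¹ * (ww m F)⁻¹ : SL m F).1 = Matrix.diagonal D := by
      have i1 : (u⁻¹ : SL m F).1 * A = 1 := by
        rw [← hu, ← coe_mul', inv_mul_cancel]; rfl
      have i2 : A' * (u'⁻¹ : SL m F).1 = 1 := by
        rw [← hu', ← coe_mul', mul_inv_cancel]; rfl
      have i3 : (ww m F).1 * ((ww m F)⁻¹ : SL m F).1 = 1 := by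
        rw [← coe_mul', mul_inv_cancel]; rfl
      rw [coe_mul', coe_mul', coe_mul', hgm]
      calc _ = ((u⁻¹ : SL m F).1 * A) * Matrix.diagonal D * (ww m F).1 * (A' * (u'⁻¹ : SL m F).1) * ((ww m F)⁻¹ : SL m F).1 := by
            simp only [Matrix.mul_assoc]
        _ = Matrix.diagonal D * ((ww m F).1 * ((ww m F)⁻¹ : SL m F).1) := by
            rw [i1, i2]; simp only [Matrix.mul_assoc, Matrix.one_mul]
        _ = _ := by rw [i3, Matrix.mul_one]
    intro i k hik
    rw [h3, Matrix.diagonal_apply_ne _ hik]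
  · right
    obtain ⟨a, b1, hab, hwab⟩ := ne_rev hwr
    obtain ⟨x, hx⟩ : ∃ x : SL m F, x.1 = 1 + c.1 * Matrix.single (w a) (w b1) (1 : F) * (c⁻¹ : GL (Fin (m + 1)) F).1 :=
      ⟨⟨_, det_conj_elem hcc hwab.ne⟩, rfl⟩
    refine ⟨x, by rw [mem_UU, hx]; exact uni_conj hbt hbti hwab, ?_, ?_⟩
    · intro h1
      rw [h1] at hx
      have h2 : (1 : SL m F).1 = 1 := rfl
      rw [h2] at hx
      have h3 : c.1 * Matrix.single (w a) (w b1) (1 : F) * (c⁻¹ : GL (Fin (m + 1)) F).1 = 0 := left_eq_add.1 hx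
      have hci : (c⁻¹ : GL (Fin (m + 1)) F).1 * c.1 = 1 := by
        rw [← Units.val_mul, inv_mul_cancel]; rfl
      have h4 : Matrix.single (w a) (w b1) (1 : F) = 0 := by
        calc Matrix.single (w a) (w b1) (1 : F) = ((c⁻¹ : GL (Fin (m + 1)) F).1 * c.1) * Matrix.single (w a) (w b1) (1 : F) * ((c⁻¹ : GL (Fin (m + 1)) F).1 * c.1) := by
              rw [hci, Matrix.one_mul, Matrix.mul_one]
          _ = (c⁻¹ : GL (Fin (m + 1)) F).1 * (c.1 * Matrix.single (w a) (w b1) (1 : F) * (c⁻¹ : GL (Fin (m + 1)) F).1) * c.1 := by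
              simp only [Matrix.mul_assoc]
          _ = 0 := by rw [h3, Matrix.mul_zero, Matrix.zero_mul]
      have h5 := congrFun (congrFun h4 (w a)) (w b1)
      rw [Matrix.single_apply_same] at h5
      exact one_ne_zero h5
    · rw [mem_UU]
      have h1 : (g⁻¹ * x * g : SL m F).1 = 1 + (c'⁻¹ : GL (Fin (m + 1)) F).1 * Matrix.single a b1 (1 : F) * c'.1 := by
        have hgi : (g⁻¹ : SL m F).1 = (G⁻¹ : GL (Fin (m + 1)) F).1 := by
          have : Matrix.SpecialLinearGroup.toGL g⁻¹ = G⁻¹ := map_inv _ g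
          rw [← this]; rfl
        have hpm : (Cfsg.Agent.H16.pm (m + 1) F w).1 = Cfsg.Agent.H16.pmM (m + 1) F w := rfl
        have hmid : (c⁻¹ : GL (Fin (m + 1)) F).1 * (x.1) * c.1 = 1 + Matrix.single (w a) (w b1) (1 : F) := by
          have hci : (c⁻¹ : GL (Fin (m + 1)) F).1 * c.1 = 1 := by
            rw [← Units.val_mul, inv_mul_cancel]; rfl
          rw [hx, Matrix.mul_add, Matrix.add_mul, Matrix.mul_one, hci]
          congr 1
          calc _ = ((c⁻¹ : GL (Fin (m + 1)) F).1 * c.1) * Matrix.single (w a) (w b1) (1 : F) * ((c⁻¹ : GL (Fin (m + 1)) F).1 * c.1) := by simp only [Matrix.mul_assoc]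
            _ = _ := by rw [hci, Matrix.one_mul, Matrix.mul_one]
        have hsw : (1 + Matrix.single (w a) (w b1) (1 : F)) * (Cfsg.Agent.H16.pm (m + 1) F w).1 = (Cfsg.Agent.H16.pm (m + 1) F w).1 * (1 + Matrix.single a b1 (1 : F)) := by
          rw [Matrix.add_mul, Matrix.mul_add, Matrix.one_mul, Matrix.mul_one]
          congr 1
          ext i k
          rw [Matrix.mul_apply, Matrix.mul_apply, Finset.sum_eq_single (w b1), Finset.sum_eq_single a]
          · rw [hpm]
            show (Matrix.single (w a) (w b1) (1 : F)) i (w b1) * (if w b1 = w k then 1 else 0) = (if i = w a then 1 else 0) * (Matrix.single a b1 (1 : F)) a k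
            by_cases h1 : i = w a <;> by_cases h2 : k = b1
            · subst h1 h2; simp
            · subst h1; simp [Matrix.single_apply, Ne.symm h2]
            · subst h2; simp [Matrix.single_apply, Ne.symm h1, h1]
            · simp [Matrix.single_apply, Ne.symm h1, Ne.symm h2]
          · intro l _ hl
            rw [Matrix.single_apply, if_neg (fun h => hl h.1.symm), mul_zero]
          · intro h; exact absurd (Finset.mem_univ _) h
          · intro l _ hl
            rw [Matrix.single_apply, if_neg (fun h => hl h.2.symm), zero_mul]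
          · intro h; exact absurd (Finset.mem_univ _) h
        have hci' : (c'⁻¹ : GL (Fin (m + 1)) F).1 * c'.1 = 1 := by
          rw [← Units.val_mul, inv_mul_cancel]; rfl
        have hpi : ((Cfsg.Agent.H16.pm (m + 1) F w)⁻¹ : GL (Fin (m + 1)) F).1 * (Cfsg.Agent.H16.pm (m + 1) F w).1 = 1 := by
          rw [← Units.val_mul, inv_mul_cancel]; rfl
        rw [coe_mul', coe_mul', hgi, ← hG, hg, _root_.mul_inv_rev, _root_.mul_inv_rev, Units.val_mul, Units.val_mul, Units.val_mul, Units.val_mul]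
        calc _ = (c'⁻¹ : GL (Fin (m + 1)) F).1 * (((Cfsg.Agent.H16.pm (m + 1) F w)⁻¹ : GL (Fin (m + 1)) F).1 * (((c⁻¹ : GL (Fin (m + 1)) F).1 * (x.1) * c.1) * (Cfsg.Agent.H16.pm (m + 1) F w).1)) * c'.1 := by
              simp only [Matrix.mul_assoc]
          _ = (c'⁻¹ : GL (Fin (m + 1)) F).1 * ((((Cfsg.Agent.H16.pm (m + 1) F w)⁻¹ : GL (Fin (m + 1)) F).1 * (Cfsg.Agent.H16.pm (m + 1) F w).1) * (1 + Matrix.single a b1 (1 : F))) * c'.1 := by
              rw [hmid, hsw]; simp only [Matrix.mul_assoc]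
          _ = _ := by rw [hpi, Matrix.one_mul, Matrix.mul_add, Matrix.add_mul, Matrix.mul_one, hci']
      rw [h1]
      exact uni_conj hbti' hbt' hab

/-- the big cell data of `SL_n` -/
noncomputable def slBig (m : ℕ) (F : Type*) [Field F] (p : ℕ) [Fact p.Prime] [CharP F p] : Big (SL m F) p where
  U := UU m F
  T := TT m F
  w := ww m F
  hU := UU_p p
  comm := TT_comm
  norm := TT_norm
  wT := wT
  cases := sl_cases

end Cfsg.Agent.LSt
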