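import Mathlib
import Cfsg.Agent.L.StC5

set_option autoImplicit false

/-! Rank one data for `SL_n`. -/

namespace Cfsg.Agent.LSt

open Matrix

variable {m : ℕ} {F : Type*} [Field F]

def xx (j : Fin m) (c : F) : SL m F := emb j (x2 c)
def hh (j : Fin m) : Fˣ →* SL m F := (emb j).comp h2
def nn (m : ℕ) (F : Type*) [Field F] (j : Fin m) : SL m F := emb j n2

lemma xx_apply (j : Fin m) (c : F) (i k : Fin (m + 1)) : (xx j c).1 i k = (if i = k then 1 else 0) +
    (if i = j.castSucc then 1 else 0) * (c * (if k = j.succ then 1 else 0)) := by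
  show embM j !![1, c; 0, 1] i k = _
  rw [embM_apply]
  simp

lemma hh_apply (j : Fin m) (b : Fˣ) (i k : Fin (m + 1)) : (hh j b).1 i k = (if i = k then 1 else 0) +
    ((if i = j.castSucc then 1 else 0) * (((b : F) - 1) * (if k = j.castSucc then 1 else 0)) +
     (if i = j.succ then 1 else 0) * ((((b⁻¹ : Fˣ) : F) - 1) * (if k = j.succ then 1 else 0))) := by
  show embM j !![(b : F), 0; 0, ((b⁻¹ : Fˣ) : F)] i k = _
  rw [embM_apply]
  simp

lemma xx_U (j : Fin m) (c : F) : xx j c ∈ UU m F := by
  rw [mem_UU]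
  intro i k hki
  rw [xx_apply]
  by_cases h1 : i = j.castSucc
  · by_cases h2 : k = j.succ
    · exfalso
      rw [h1, h2] at hki
      exact absurd hki (not_le.2 (Fin.castSucc_lt_succ (i := j)))
    · simp [h2]
  · simp [h1]

lemma xx_add (j : Fin m) (a b : F) : xx j (a + b) = xx j a * xx j b := by
  unfold xx; rw [x2_add, map_mul]

lemma hh_T (j : Fin m) (b : Fˣ) : hh j b ∈ TT m F := by
  intro i k hik
  rw [hh_apply, if_neg hik]
  by_cases h1 : i = j.castSucc
  · have h2 : k ≠ j.castSucc := fun h => hik (h1.trans h.symm)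
    have h3 : i ≠ j.succ := h1 ▸ cs_ne j
    simp [h2, h3]
  · by_cases h3 : i = j.succ
    · have h4 : k ≠ j.succ := fun h => hik (h3.trans h.symm)
      simp [h1, h4]
    · simp [h1, h3]

lemma nn_sq (j : Fin m) : nn m F j * nn m F j ∈ TT m F := by
  have h1 : (n2 : Matrix.SpecialLinearGroup (Fin 2) F) * n2 = h2 (-1) := by
    apply Subtype.ext
    show !![0, 1; -1, 0] * !![0, 1; -1, 0] = !![((-1 : Fˣ) : F), 0; 0, (((-1 : Fˣ)⁻¹ : Fˣ) : F)]
    ext i j; fin_cases i <;> fin_cases j <;> simp
  have h3 : nn m F j * nn m F j = hh j (-1) := by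
    show emb j n2 * emb j n2 = emb j (h2 (-1))
    rw [← map_mul, h1]
  rw [h3]
  exact hh_T j _

def ne' (m : ℕ) (F : Type*) [Field F] (j : Fin m) (k : Fin (m + 1)) : F := if k = j.castSucc then -1 else 1

lemma nn_apply (j : Fin m) (i k : Fin (m + 1)) : (nn m F j).1 i k = if i = Equiv.swap j.castSucc j.succ k then ne' m F j k else 0 := by
  show embM j !![0, 1; -1, 0] i k = _
  rw [embM_apply, Equiv.swap_apply_def]
  have hc := cs_ne j
  unfold ne'
  by_cases h1 : k = j.castSucc
  · subst h1
    by_cases h2 : i = j.castSucc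
    · subst h2; simp [hc]
    · by_cases h3 : i = j.succ
      · subst h3; simp [hc, hc.symm]
      · simp [h2, h3]
  · by_cases h4 : k = j.succ
    · subst h4
      by_cases h2 : i = j.castSucc
      · subst h2; simp [hc, hc.symm]
      · by_cases h3 : i = j.succ
        · subst h3; simp [hc, hc.symm]
        · simp [h2, h3, hc.symm]
    · simp [h1, h4]

lemma ne_ne (j : Fin m) (k : Fin (m + 1)) : ne' m F j k ≠ 0 := by
  unfold ne'
  split_ifs
  · exact neg_ne_zero.2 one_ne_zero
  · exact one_ne_zero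

/-- superdiagonal entries are additive on unitriangular matrices -/
lemma super {A B : Matrix (Fin (m + 1)) (Fin (m + 1)) F} (hA : Uni A) (hB : Uni B) (j : Fin m) :
    (A * B) j.castSucc j.succ = A j.castSucc j.succ + B j.castSucc j.succ := by
  have hc := cs_ne j
  rw [Matrix.mul_apply, ← Finset.add_sum_erase _ _ (Finset.mem_univ j.castSucc),
    ← Finset.add_sum_erase _ _ (Finset.mem_erase.2 ⟨hc.symm, Finset.mem_univ j.succ⟩), Finset.sum_eq_zero]
  · rw [hA _ _ le_rfl, hB _ _ le_rfl, if_pos rfl, if_pos rfl]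
    ring
  · intro l hl
    rw [Finset.mem_erase, Finset.mem_erase] at hl
    rcases lt_or_ge l j.castSucc with h | h
    · rw [hA _ _ h.le, if_neg h.ne', zero_mul]
    · have h2 : j.succ ≤ l := by
        have h3 := lt_of_le_of_ne h (Ne.symm hl.2.1)
        rw [Fin.lt_def] at h3
        rw [Fin.le_def]
        simp only [Fin.val_castSucc, Fin.val_succ] at h3 ⊢
        omega
      rw [hB _ _ h2, if_neg hl.1, mul_zero]

lemma swap_lt (j : Fin m) {i k : Fin (m + 1)} (hki : k < i) (h : ¬ (k = j.castSucc ∧ i = j.succ)) :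
    Equiv.swap j.castSucc j.succ k < Equiv.swap j.castSucc j.succ i := by
  rw [Equiv.swap_apply_def, Equiv.swap_apply_def]
  simp only [Fin.ext_iff, Fin.lt_def, Fin.val_castSucc, Fin.val_succ] at *
  split_ifs <;> (try simp only [Fin.val_castSucc, Fin.val_succ] at *) <;> omega

lemma push_aux (j : Fin m) {A : SL m F} (hA : A ∈ UU m F) (h0 : A.1 j.castSucc j.succ = 0) : (nn m F j)⁻¹ * A * nn m F j ∈ UU m F := by
  rw [mem_UU]
  intro i k hki
  rw [conj_mono (nn m F j) A _ (Equiv.swap j.castSucc j.succ).bijective (ne' m F j) (ne_ne j) (nn_apply j)]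
  rcases hki.lt_or_eq with h | h
  · rw [if_neg h.ne']
    by_cases h1 : k = j.castSucc ∧ i = j.succ
    · rw [h1.1, h1.2, Equiv.swap_apply_right, Equiv.swap_apply_left, h0, mul_zero, zero_mul]
    · have h2 := swap_lt j h h1
      rw [hA _ _ h2.le, if_neg h2.ne', mul_zero, zero_mul]
  · subst h
    rw [hA _ _ le_rfl, if_pos rfl, if_pos rfl, mul_one, inv_mul_cancel₀ (ne_ne j k)]

lemma sl_push (j : Fin m) (u : SL m F) (hu : u ∈ UU m F) : ∃ a : F, ∀ c, (nn m F j)⁻¹ * ((xx j (a + c))⁻¹ * u * xx j c) * nn m F j ∈ UU m F := by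
  refine ⟨u.1 j.castSucc j.succ, fun c => push_aux j ?_ ?_⟩
  · exact mul_mem (mul_mem (inv_mem (xx_U _ _)) hu) (xx_U _ _)
  · have hs : ∀ c : F, (xx j c).1 j.castSucc j.succ = c := by
      intro c
      rw [xx_apply]
      simp [cs_ne j]
    have h1 : ((xx j (u.1 j.castSucc j.succ + c))⁻¹ : SL m F).1 j.castSucc j.succ = - (u.1 j.castSucc j.succ + c) := by
      have h2 := super (mem_UU.1 (inv_mem (xx_U j (u.1 j.castSucc j.succ + c)))) (mem_UU.1 (xx_U j (u.1 j.castSucc j.succ + c))) j
      rw [← coe_mul', inv_mul_cancel, hs] at h2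
      have h3 : (1 : SL m F).1 j.castSucc j.succ = 0 := Matrix.one_apply_ne (cs_ne j)
      rw [h3] at h2
      exact eq_neg_of_add_eq_zero_left h2.symm
    rw [coe_mul', super (mem_UU.1 (mul_mem (inv_mem (xx_U _ _)) hu)) (mem_UU.1 (xx_U _ _)), coe_mul', super (mem_UU.1 (inv_mem (xx_U _ _))) (mem_UU.1 hu), h1, hs]
    ring

lemma sl_opp (j : Fin m) (c : F) : (ww m F)⁻¹ * xx j.rev c * ww m F = (nn m F j)⁻¹ * xx j (-(c * (we m F j.castSucc / we m F j.succ))) * nn m F j := by
  apply Subtype.ext
  ext i k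
  have h1 : ((nn m F j)⁻¹ * xx j (-(c * (we m F j.castSucc / we m F j.succ))) * nn m F j : SL m F).1 =
      embM j !![1, 0; -(-(c * (we m F j.castSucc / we m F j.succ))), 1] := by
    rw [← nxn2]
    show ((emb j n2)⁻¹ * emb j (x2 _) * emb j n2 : SL m F).1 = (emb j _).1
    rw [map_mul, map_mul, map_inv]
  rw [h1, embM_apply, conj_mono (ww m F) _ Fin.rev Fin.rev_bijective (we m F) we_ne ww_apply, xx_apply]
  have e1 : (Fin.rev i = (Fin.rev j).castSucc) = (i = j.succ) := by
    rw [← Fin.rev_succ, Fin.rev_inj]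
  have e2 : (Fin.rev k = (Fin.rev j).succ) = (k = j.castSucc) := by
    rw [← Fin.rev_castSucc, Fin.rev_inj]
  have e3 : (Fin.rev i = Fin.rev k) = (i = k) := by rw [Fin.rev_inj]
  simp only [e1, e2, e3]
  have hc := cs_ne j
  by_cases h2 : i = j.succ
  · subst h2
    by_cases h3 : k = j.castSucc
    · subst h3
      have := we_ne (F := F) j.succ
      simp [hc, hc.symm]
      field_simp
    · by_cases h4 : j.succ = k
      · subst h4
        simp [hc, hc.symm, inv_mul_cancel₀ (we_ne (F := F) j.succ)]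
      · simp [h3, h4, hc.symm, Ne.symm h4]
  · by_cases h4 : i = k
    · subst h4
      simp [h2, inv_mul_cancel₀ (we_ne (F := F) i)]
    · simp [h2, h4]

theorem sl_RK (p : ℕ) [Fact p.Prime] [CharP F p] (j : Fin m) : RK (slBig m F p) F (xx j) (hh j) (nn m F j) where
  xU := xx_U j
  xadd := xx_add j
  hT := hh_T j
  nn := nn_sq j
  push := sl_push j
  rel b := by
    show emb j n2 * emb j (x2 _) * emb j n2 = emb j (x2 _) * emb j (h2 b) * emb j n2 * emb j (x2 _)
    simp only [← map_mul]
    rw [rel2]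
  hx b c := by
    show emb j (h2 b) * emb j (x2 c) = emb j (x2 _) * emb j (h2 b)
    simp only [← map_mul]
    rw [hx2]
  opp := by
    refine ⟨xx j.rev, xx_U _, xx_add _, ?_, ?_⟩
    · intro a b hab
      have h1 := congrFun (congrFun (congrArg Subtype.val hab) j.rev.castSucc) j.rev.succ
      rw [xx_apply, xx_apply] at h1
      simpa [cs_ne j.rev] using h1
    · have hne : (-(we m F j.castSucc / we m F j.succ)) ≠ 0 := neg_ne_zero.2 (div_ne_zero (we_ne _) (we_ne _))
      refine ⟨Equiv.mulRight₀ _ hne, fun c => ?_⟩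
      have h1 := sl_opp j c
      have h2 : Equiv.mulRight₀ (-(we m F j.castSucc / we m F j.succ)) hne c = -(c * (we m F j.castSucc / we m F j.succ)) := by
        show c * (-(we m F j.castSucc / we m F j.succ)) = _
        ring
      rw [h2]
      exact h1

theorem sl_gen (p : ℕ) [Fact p.Prime] [CharP F p] : ∀ t ∈ (slBig m F p).T, t ∈ Subgroup.closure (⋃ j : Fin m, Set.range (hh (F := F) j)) := by
  have key : ∀ r : ℕ, r ≤ m → ∀ t ∈ TT m F, (∀ i : Fin (m + 1), i.1 < m - r → t.1 i i = 1) → t ∈ Subgroup.closure (⋃ j : Fin m, Set.range (hh (F := F) j)) := by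
    intro r
    induction r with
    | zero =>
      intro _ t ht h
      have h1 : t = 1 := by
        apply Subtype.ext
        have h2 := t.2
        rw [TT_eq ht, Matrix.det_diagonal, Fin.prod_univ_castSucc] at h2
        have h3 : ∀ i : Fin m, t.1 i.castSucc i.castSucc = 1 := fun i => h _ (by simp)
        rw [Finset.prod_eq_one fun i _ => h3 i, one_mul] at h2
        rw [TT_eq ht]
        ext i k
        by_cases hik : i = k
        · subst hik
          rw [Matrix.diagonal_apply_eq]
          show _ = (1 : Matrix (Fin (m + 1)) (Fin (m + 1)) F) i i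
          rw [Matrix.one_apply_eq]
          rcases Fin.eq_castSucc_or_eq_last i with ⟨l, rfl⟩ | rfl
          · exact h3 l
          · exact h2
        · rw [Matrix.diagonal_apply_ne _ hik]
          exact (Matrix.one_apply_ne hik).symm
      rw [h1]; exact one_mem _
    | succ r ih =>
      intro hr t ht h
      let j : Fin m := ⟨m - (r + 1), by omega⟩
      let b : Fˣ := Units.mk0 (t.1 j.castSucc j.castSucc) (TT_ne ht _)
      have h1 : (hh j b)⁻¹ * t ∈ TT m F := mul_mem (inv_mem (hh_T j b)) ht
      have h2 : t = hh j b * ((hh j b)⁻¹ * t) := by group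
      rw [h2]
      refine mul_mem (Subgroup.subset_closure (Set.mem_iUnion.2 ⟨j, b, rfl⟩)) (ih (by omega) _ h1 ?_)
      intro i hi
      rw [← map_inv]
      rw [coe_mul', Matrix.mul_apply, Finset.sum_eq_single i]
      · rw [hh_apply]
        by_cases hij : i = j.castSucc
        · rw [hij]
          have hb : ((b⁻¹ : Fˣ) : F) * t.1 j.castSucc j.castSucc = 1 := by
            show ((b⁻¹ : Fˣ) : F) * (b : F) = 1
            rw [← Units.val_mul, inv_mul_cancel]; rfl
          simpa [cs_ne j] using hb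
        · have hlt : i.1 < m - (r + 1) := by
            have : i.1 ≠ m - (r + 1) := fun h0 => hij (Fin.ext h0)
            omega
          have hne : i ≠ j.succ := by
            intro h0
            rw [h0] at hlt
            simp [j] at hlt
          rw [h i hlt]
          simp [hij, hne]
      · intro l _ hl
        rw [ht _ _ hl, mul_zero]
      · intro h0; exact absurd (Finset.mem_univ _) h0
  intro t ht
  exact key m le_rfl t ht (fun i hi => absurd hi (by omega))

end Cfsg.Agent.LSt
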