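import Mathlib
import Cfsg.Agent.L.StC6
import Cfsg.Agent.L.StC3
import Cfsg.Agent.H16.FlagI
import Cfsg.Agent.S0887

set_option autoImplicit false

/-! The Steinberg character: existence of a character of defect zero for `SL_n(q)`. -/

namespace Cfsg.Agent.LSt

open Cfsg Cfsg.Agent.H16

variable {F : Type*} [Field F] [Fintype F]

lemma prod_pairs (n : ℕ) (f : ℕ → ℕ → ℂ) : ∏ i : Fin n, ∏ j ∈ Finset.Ioi i, f i.val j.val = ∏ j ∈ Finset.range n, ∏ i ∈ Finset.range j, f i j := by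
  have h1 : ∀ i : Fin n, ∏ j ∈ Finset.Ioi i, f i.val j.val = ∏ j : Fin n, if i.val < j.val then f i.val j.val else 1 := by
    intro i
    rw [← Finset.prod_filter]
    apply Finset.prod_congr _ (fun _ _ => rfl)
    ext j; simp
  rw [Finset.prod_congr rfl fun i _ => h1 i, Finset.prod_comm, Finset.prod_range (fun j => ∏ i ∈ Finset.range j, f i j)]
  refine Finset.prod_congr rfl fun j _ => ?_
  rw [← Finset.prod_range (fun i => if i < j.val then f i j.val else 1), ← Finset.prod_filter]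
  apply Finset.prod_congr _ (fun _ _ => rfl)
  ext i
  simp only [Finset.mem_filter, Finset.mem_range]
  have := j.2
  omega

lemma qf_eq (q j : ℕ) : ∏ i ∈ Finset.range j, (qn q (j - i) : ℂ) = (qf q j : ℂ) := by
  unfold qf
  push_cast
  rw [← Finset.prod_range_reflect]
  apply Finset.prod_congr rfl
  intro i hi
  rw [Finset.mem_range] at hi
  congr 2
  omega

theorem st_degree (n : ℕ) : unipotentCharacterGL n F (fun _ => 1) 1 = (Fintype.card F : ℂ) ^ (∑ j ∈ Finset.range n, j) := by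
  set q := Fintype.card F with hq
  have hq1 : 1 < q := Fintype.one_lt_card
  have h := degree_formula (F := F) (n := n) (ν := fun _ => 1) (by simp)
  rw [← hq] at h
  have h1 : ∏ i : Fin n, ∏ j ∈ Finset.Ioi i, ((qn q (1 + j.val) : ℂ) - (qn q (1 + i.val) : ℂ)) =
      (q : ℂ) ^ (c3 n + ∑ j ∈ Finset.range n, j) * ∏ j ∈ Finset.range n, (qf q j : ℂ) := by
    have h2 : ∏ i : Fin n, ∏ j ∈ Finset.Ioi i, ((qn q (1 + j.val) : ℂ) - (qn q (1 + i.val) : ℂ)) =
        ∏ i : Fin n, ∏ j ∈ Finset.Ioi i, ((q : ℂ) ^ (1 + i.val) * (qn q (j.val - i.val) : ℂ)) := by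
      refine Finset.prod_congr rfl fun i _ => Finset.prod_congr rfl fun j hj => ?_
      have hij : i.val < j.val := by
        rw [Finset.mem_Ioi] at hj; exact hj
      have h3 := qn_sub q (1 + j.val) (1 + i.val) (by omega)
      have h4 : 1 + j.val - (1 + i.val) = j.val - i.val := by omega
      rw [h4] at h3
      rw [← h3]
      push_cast
      ring
    rw [h2, prod_pairs n (fun i j => (q : ℂ) ^ (1 + i) * (qn q (j - i) : ℂ))]
    have h3 : ∀ j ∈ Finset.range n, ∏ i ∈ Finset.range j, ((q : ℂ) ^ (1 + i) * (qn q (j - i) : ℂ)) = (q : ℂ) ^ (∑ i ∈ Finset.range j, (1 + i)) * (qf q j : ℂ) := by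
      intro j _
      rw [Finset.prod_mul_distrib, qf_eq, Finset.prod_pow_eq_pow_sum]
    rw [Finset.prod_congr rfl h3, Finset.prod_mul_distrib, Finset.prod_pow_eq_pow_sum]
    congr 2
    unfold c3
    rw [← Finset.sum_add_distrib]
    refine Finset.sum_congr rfl fun j _ => ?_
    rw [Finset.sum_add_distrib]
    simp [add_comm]
  have h2 : ∏ i : Fin n, (qf q (1 + i.val) : ℂ) = (∏ j ∈ Finset.range n, (qf q j : ℂ)) * (qf q n : ℂ) := by
    rw [← Finset.prod_range_succ (fun j => (qf q j : ℂ)), Finset.prod_range_succ' (fun j => (qf q j : ℂ)), ← Finset.prod_range (fun i => (qf q (1 + i) : ℂ))]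
    have h3 : (qf q 0 : ℂ) = 1 := by simp [qf]
    rw [h3, mul_one]
    exact Finset.prod_congr rfl fun i _ => by rw [add_comm]
  have hpos : ∀ j, (qf q j : ℂ) ≠ 0 := fun j => Nat.cast_ne_zero.2 (qf_pos q j hq1.le).ne'
  have hX : (∏ j ∈ Finset.range n, (qf q j : ℂ)) ≠ 0 := Finset.prod_ne_zero_iff.2 fun j _ => hpos j
  have hqne : (q : ℂ) ≠ 0 := Nat.cast_ne_zero.2 (by omega)
  have h' : unipotentCharacterGL n F (fun _ => 1) 1 * (q : ℂ) ^ (c3 n) * ((∏ j ∈ Finset.range n, (qf q j : ℂ)) * (qf q n : ℂ)) =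
      (qf q n : ℂ) * ((q : ℂ) ^ (c3 n + ∑ j ∈ Finset.range n, j) * ∏ j ∈ Finset.range n, (qf q j : ℂ)) := by
    rw [← h1, ← h2]; exact h
  rw [pow_add] at h'
  have hne : (q : ℂ) ^ (c3 n) * ((∏ j ∈ Finset.range n, (qf q j : ℂ)) * (qf q n : ℂ)) ≠ 0 :=
    mul_ne_zero (pow_ne_zero _ hqne) (mul_ne_zero hX (hpos n))
  apply mul_right_cancel₀ hne
  linear_combination h'

lemma qn_mod (p q : ℕ) (hp : p.Prime) (hpq : p ∣ q) (k : ℕ) (hk : k ≠ 0) : ¬ p ∣ qn q k := by
  obtain ⟨k, rfl⟩ := Nat.exists_eq_succ_of_ne_zero hk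
  unfold qn
  rw [Finset.sum_range_succ']
  intro h
  have h1 : p ∣ ∑ i ∈ Finset.range k, q ^ (i + 1) := Finset.dvd_sum fun i _ => hpq.trans (dvd_pow_self q (Nat.succ_ne_zero _))
  have h2 := (Nat.dvd_add_right h1).1 h
  rw [pow_zero] at h2
  exact hp.one_lt.ne' (Nat.dvd_one.1 h2)

lemma gl_part (p : ℕ) [hp : Fact p.Prime] [CharP F p] (n : ℕ) :
    ∃ r, ¬ p ∣ r ∧ Nat.card (GL (Fin n) F) = Fintype.card F ^ (∑ j ∈ Finset.range n, j) * r := by
  have hq1 : 1 < Fintype.card F := Fintype.one_lt_card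
  obtain ⟨d, hd, h1⟩ := FiniteField.card F p
  have hpq : p ∣ Fintype.card F := by rw [h1]; exact dvd_pow_self p d.ne_zero
  refine ⟨(Fintype.card F - 1) ^ n * qf (Fintype.card F) n, ?_, ?_⟩
  · intro h
    rcases (hp.out.dvd_mul).1 h with h2 | h2
    · have h3 := hp.out.dvd_of_dvd_pow h2
      have h4 := (Nat.dvd_sub_iff_right hq1.le hpq).1 h3
      exact hp.out.one_lt.ne' (Nat.dvd_one.1 h4)
    · unfold qf at h2
      obtain ⟨j, -, hj⟩ := (Prime.dvd_finset_prod_iff hp.out.prime _).1 h2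
      exact qn_mod p _ hp.out hpq (j + 1) (Nat.succ_ne_zero _) hj
  · rw [card_gl_iota n (ι := Fin n) (F := F) (Fintype.card_fin n), gl_formula _ _ hq1.le]

theorem sl_exists (p : ℕ) [hp : Fact p.Prime] [CharP F p] (n : ℕ) :
    ∃ χ : IrrCharacter (Matrix.SpecialLinearGroup (Fin n) F), ¬ p ∣ Nat.card (Matrix.SpecialLinearGroup (Fin n) F) / charDegree (χ : Matrix.SpecialLinearGroup (Fin n) F → ℂ) := by
  classical
  haveI : Finite (GL (Fin n) F) := inferInstance
  letI : Fintype (GL (Fin n) F) := Fintype.ofFinite _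
  have hirr : IsIrrCharacter (GL (Fin n) F) (unipotentCharacterGL n F (fun _ => 1)) :=
    unip_irr (by simp) (fun _ _ _ => le_rfl)
  set E := ∑ j ∈ Finset.range n, j with hE
  have hdeg : unipotentCharacterGL n F (fun _ => 1) 1 = ((Fintype.card F ^ E : ℕ) : ℂ) := by
    rw [st_degree]; push_cast; rfl
  let ι : Matrix.SpecialLinearGroup (Fin n) F →* GL (Fin n) F := Matrix.SpecialLinearGroup.toGL
  have hι : Function.Injective ι := Matrix.SpecialLinearGroup.toGL_injective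
  let N : Subgroup (GL (Fin n) F) := ι.range
  have hNd : N = (Matrix.GeneralLinearGroup.det : GL (Fin n) F →* Fˣ).ker := by
    ext g
    constructor
    · rintro ⟨s, rfl⟩
      rw [MonoidHom.mem_ker]
      apply Units.ext
      exact s.2
    · intro hg
      rw [MonoidHom.mem_ker] at hg
      have h1 : (g : Matrix (Fin n) (Fin n) F).det = 1 := by
        have := congrArg Units.val hg
        exact this
      exact ⟨⟨g, h1⟩, Units.ext rfl⟩
  haveI hN : N.Normal := by rw [hNd]; infer_instance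
  letI : Fintype N := Fintype.ofFinite _
  have hχN0 : (fun x : N => unipotentCharacterGL n F (fun _ => 1) (x : GL (Fin n) F)) ≠ 0 := by
    intro h
    have h1 := congrFun h 1
    have h2 : unipotentCharacterGL n F (fun _ => 1) ((1 : N) : GL (Fin n) F) = 0 := h1
    rw [Subgroup.coe_one, hdeg] at h2
    have h3 : Fintype.card F ^ E = 0 := by exact_mod_cast h2
    exact (pow_ne_zero _ Fintype.card_ne_zero) h3
  obtain ⟨⟨θ, hθ⟩, hcon⟩ := Cfsg.Agent.H3.exists_constituent (Cfsg.Agent.H3.isChar_restrict N (Cfsg.Agent.H3.irr_isChar hirr)) hχN0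
  obtain ⟨d, hd0, hd⟩ := Cfsg.Agent.H3.irr_one_eq_nat hθ
  obtain ⟨h1, h2⟩ := Cfsg.Agent.S0887.result N _ hirr θ hθ hcon (Fintype.card F ^ E) d hdeg hd
  have hind : N.index ∣ Fintype.card F - 1 := by
    rw [hNd, Subgroup.index_ker]
    have h3 := Subgroup.card_subgroup_dvd_card (Matrix.GeneralLinearGroup.det : GL (Fin n) F →* Fˣ).range
    have h4 : Nat.card Fˣ = Fintype.card F - 1 := by rw [Nat.card_units, Nat.card_eq_fintype_card]
    rwa [h4] at h3
  obtain ⟨f, hf, hq⟩ := FiniteField.card F p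
  have hq1 : 1 < Fintype.card F := Fintype.one_lt_card
  have hpq : p ∣ Fintype.card F := by rw [hq]; exact dvd_pow_self p f.ne_zero
  have hd2 : d = Fintype.card F ^ E := by
    obtain ⟨c, hc⟩ := h1
    have hdpos : 0 < d := hd0
    rw [hc, Nat.mul_div_cancel_left _ hdpos] at h2
    have h3 : c ∣ p ^ (f * E : ℕ) := by
      rw [pow_mul, ← hq, hc]; exact Dvd.intro_left d rfl
    obtain ⟨r, -, hr⟩ := (Nat.dvd_prime_pow hp.out).1 h3
    have hr0 : r = 0 := by
      by_contra hr0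
      have h4 : p ∣ Fintype.card F - 1 := ((hr ▸ dvd_pow_self p hr0 : p ∣ c).trans h2).trans hind
      have h5 := (Nat.dvd_sub_iff_right hq1.le hpq).1 h4
      exact hp.out.one_lt.ne' (Nat.dvd_one.1 h5)
    rw [hr, hr0, pow_zero, mul_one] at hc
    exact hc.symm
  let e := MonoidHom.ofInjective hι
  have hθ' : IsIrrCharacter (Matrix.SpecialLinearGroup (Fin n) F) (fun x => θ (e x)) := (Cfsg.Agent.H3.isIrr_comp_equiv_iff e).2 hθ
  refine ⟨⟨_, hθ'⟩, ?_⟩
  have h3 := (Cfsg.Agent.H11.charDegree_spec hθ').1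
  have h4 : charDegree (fun x => θ (e x)) = Fintype.card F ^ E := by
    have h5 : θ (e 1) = ((Fintype.card F ^ E : ℕ) : ℂ) := by rw [map_one, hd, hd2]
    rw [h5] at h3
    exact_mod_cast h3.symm
  show ¬ p ∣ Nat.card (Matrix.SpecialLinearGroup (Fin n) F) / charDegree (fun x => θ (e x))
  rw [h4]
  have h6 : Fintype.card F ^ E ∣ Nat.card (Matrix.SpecialLinearGroup (Fin n) F) := by
    rw [← h4]; exact Cfsg.Agent.H27.charDegree_dvd_card hθ'
  have h7 : Nat.card (Matrix.SpecialLinearGroup (Fin n) F) ∣ Nat.card (GL (Fin n) F) := Subgroup.card_dvd_of_injective ι hι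
  obtain ⟨r, hr, hGL⟩ := gl_part (F := F) p n
  rw [← hE] at hGL
  intro hcon2
  apply hr
  have hpos : 0 < Fintype.card F ^ E := pow_pos (by omega) _
  obtain ⟨s, hs⟩ := h6
  rw [hs, Nat.mul_div_cancel_left _ hpos] at hcon2
  rw [hs, hGL] at h7
  exact hcon2.trans (Nat.dvd_of_mul_dvd_mul_left hpos h7)

/-- uniqueness for `SL_n(q)` -/
theorem sl_unique {p : ℕ} [hp : Fact p.Prime] [CharP F p] {M : Ideal AlgInt} (hM : IsPModular p M) (m : ℕ)
    (χ χ' : IrrCharacter (SL m F)) (h0 : ¬ p ∣ Nat.card (SL m F) / charDegree (χ : SL m F → ℂ)) (h0' : ¬ p ∣ Nat.card (SL m F) / charDegree (χ' : SL m F → ℂ)) : χ = χ' :=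
  uniq_dz hM (fun j => sl_RK (F := F) p j) (sl_gen p) χ χ' h0 h0'

end Cfsg.Agent.LSt
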