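import Mathlib
import Cfsg.Agent.L.StB1
import Cfsg.Agent.S2391

set_option autoImplicit false

/-! Centralisers of radical p-subgroups of `SL_n(q)`. -/

namespace Cfsg.Agent.LSt

open Cfsg Matrix

variable {F : Type*} [Field F] {n : ℕ}

abbrev SLn (n : ℕ) (F : Type*) [Field F] := Matrix.SpecialLinearGroup (Fin n) F

lemma mv_mul (a b : SLn n F) (v : Fin n → F) : (a * b : SLn n F).1.mulVec v = a.1.mulVec (b.1.mulVec v) := by
  rw [Matrix.mulVec_mulVec]; rfl

lemma mv_one (v : Fin n → F) : (1 : SLn n F).1.mulVec v = v := Matrix.one_mulVec v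

lemma mv_inv (a : SLn n F) (v : Fin n → F) : (a⁻¹ : SLn n F).1.mulVec (a.1.mulVec v) = v := by
  rw [← mv_mul, inv_mul_cancel, mv_one]

lemma mv_inv' (a : SLn n F) (v : Fin n → F) : a.1.mulVec ((a⁻¹ : SLn n F).1.mulVec v) = v := by
  rw [← mv_mul, mul_inv_cancel, mv_one]

/-- the unipotent radical of the stabiliser of `W` -/
def QQ (W : Submodule F (Fin n → F)) : Subgroup (SLn n F) where
  carrier := {g | (∀ v, g.1.mulVec v - v ∈ W) ∧ ∀ w ∈ W, g.1.mulVec w = w}
  mul_mem' {a b} ha hb := by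
    refine ⟨fun v => ?_, fun w hw => by rw [mv_mul, hb.2 w hw, ha.2 w hw]⟩
    rw [mv_mul]
    have h1 : a.1.mulVec (b.1.mulVec v) - v = a.1.mulVec (b.1.mulVec v - v) + (a.1.mulVec v - v) := by
      rw [Matrix.mulVec_sub]; abel
    rw [h1, ha.2 _ (hb.1 v)]
    exact W.add_mem (hb.1 v) (ha.1 v)
  one_mem' := ⟨fun v => by rw [mv_one, sub_self]; exact W.zero_mem, fun w _ => mv_one w⟩
  inv_mem' {a} ha := by
    refine ⟨fun v => ?_, fun w hw => ?_⟩
    · have h1 := ha.1 ((a⁻¹ : SLn n F).1.mulVec v)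
      rw [mv_inv'] at h1
      have h2 := W.neg_mem h1
      rwa [neg_sub] at h2
    · conv_lhs => rw [← ha.2 w hw]
      exact mv_inv a w

def KK (W : Submodule F (Fin n → F)) : Subgroup (SLn n F) where
  carrier := {g | ∀ w, g.1.mulVec w ∈ W ↔ w ∈ W}
  mul_mem' {a b} ha hb w := by rw [mv_mul, ha, hb]
  one_mem' w := by rw [mv_one]
  inv_mem' {a} ha w := by rw [← ha ((a⁻¹ : SLn n F).1.mulVec w), mv_inv']

lemma QQ_p (p : ℕ) [hp : Fact p.Prime] [CharP F p] (W : Submodule F (Fin n → F)) : IsPGroup p (QQ W) := by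
  rintro ⟨g, hg⟩
  rcases Nat.eq_zero_or_pos n with rfl | hn
  · exact ⟨1, Subsingleton.elim _ _⟩
  haveI : Nonempty (Fin n) := ⟨⟨0, hn⟩⟩
  refine ⟨1, Subtype.ext (Subtype.ext ?_)⟩
  rw [pow_one]
  show (((⟨g, hg⟩ : QQ W) ^ p : QQ W) : SLn n F).1 = 1
  rw [Subgroup.coe_pow]
  have h3 : ((g ^ p : SLn n F)).1 = g.1 ^ p := Matrix.SpecialLinearGroup.coe_pow _ _
  rw [h3]
  have h4 : g.1 = 1 + (g.1 - 1) := by abel
  have h5 : (g.1 - 1) ^ 2 = 0 := by
    rw [pow_two]
    apply Matrix.ext_of_mulVec_single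
    intro i
    rw [← Matrix.mulVec_mulVec, Matrix.zero_mulVec, Matrix.sub_mulVec (g.1) 1 (Pi.single i 1), Matrix.one_mulVec, Matrix.sub_mulVec, Matrix.one_mulVec, hg.2 _ (hg.1 _), sub_self]
  have h6 : (g.1 - 1) ^ p = 0 := by
    rw [← Nat.add_sub_cancel' hp.out.two_le, pow_add, h5, zero_mul]
  rw [h4, add_pow_char_of_commute _ (Commute.one_left _), one_pow, h6, add_zero]

lemma KK_norm (W : Submodule F (Fin n → F)) : KK W ≤ Subgroup.normalizer (QQ W : Set (SLn n F)) := by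
  have key : ∀ k ∈ KK W, ∀ q ∈ QQ W, k * q * k⁻¹ ∈ QQ W := by
    rintro k hk q ⟨h1, h2⟩
    refine ⟨fun v => ?_, fun w hw => ?_⟩
    · have h3 : (k * q * k⁻¹ : SLn n F).1.mulVec v - v = k.1.mulVec (q.1.mulVec ((k⁻¹ : SLn n F).1.mulVec v) - (k⁻¹ : SLn n F).1.mulVec v) := by
        rw [Matrix.mulVec_sub, mv_mul, mv_mul, mv_inv']
      rw [h3]
      exact (hk _).2 (h1 _)
    · rw [mv_mul, mv_mul, h2 _ ((inv_mem hk w).2 hw), mv_inv']
  intro k hk
  rw [Subgroup.mem_normalizer_iff]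
  intro q
  refine ⟨key k hk q, fun h => ?_⟩
  have h1 := key k⁻¹ (inv_mem hk) _ h
  have h2 : k⁻¹ * (k * q * k⁻¹) * k⁻¹⁻¹ = q := by group
  rwa [h2] at h1

/-- an element commuting with the unipotent radical which is semisimple is scalar -/
lemma scalar_of_commute (p : ℕ) [hp : Fact p.Prime] [CharP F p] {W : Submodule F (Fin n → F)} (h0 : W ≠ ⊥) (h1 : W ≠ ⊤) {x : SLn n F}
    (hx : ∀ q ∈ QQ W, q * x = x * q) {r : ℕ} (hr : ¬ p ∣ r) (hxr : x ^ r = 1) : x ∈ Subgroup.center (SLn n F) := by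
  classical
  obtain ⟨w0, hw0, hw0'⟩ := (Submodule.ne_bot_iff W).1 h0
  have key : ∀ f : Module.Dual F (Fin n → F), W ≤ LinearMap.ker f → ∀ w ∈ W, ∀ v, f v • x.1.mulVec w = f (x.1.mulVec v) • w := by
    intro f hf w hw v
    have hfw : f w = 0 := hf hw
    let A : Matrix (Fin n) (Fin n) F := LinearMap.toMatrix' (LinearMap.smulRight f w)
    have hA : ∀ v, A.mulVec v = f v • w := by
      intro v
      show (LinearMap.toMatrix' (LinearMap.smulRight f w)).mulVec v = _
      rw [LinearMap.toMatrix'_mulVec]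
      rfl
    have hdet : (1 + A).det = 1 := by
      have hA2 : A = Matrix.vecMulVec w (fun i => f (Pi.single i 1)) := by
        ext i j
        have h2 := congrFun (hA (Pi.single j 1)) i
        rw [Matrix.mulVec_single_one] at h2
        rw [Matrix.vecMulVec_apply]
        have h3 : A i j = f (Pi.single j 1) * w i := h2
        rw [h3, mul_comm]
      rw [hA2, Matrix.vecMulVec_eq Unit, Matrix.det_one_add_replicateCol_mul_replicateRow]
      have h2 : (fun i => f (Pi.single i 1)) ⬝ᵥ w = f w := by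
        conv_rhs => rw [← Finset.univ_sum_single w]
        rw [map_sum]
        unfold dotProduct
        refine Finset.sum_congr rfl fun i _ => ?_
        have h3 : (Pi.single i (w i) : Fin n → F) = w i • Pi.single i 1 := by
          rw [← Pi.single_smul, smul_eq_mul, mul_one]
        rw [h3, map_smul, smul_eq_mul, mul_comm]
      rw [h2, hfw, add_zero]
    let q : SLn n F := ⟨1 + A, hdet⟩
    have hqv : ∀ v, q.1.mulVec v = v + f v • w := by
      intro v
      show (1 + A).mulVec v = _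
      rw [Matrix.add_mulVec, Matrix.one_mulVec, hA]
    have hq : q ∈ QQ W := by
      refine ⟨fun v => ?_, fun w' hw' => ?_⟩
      · rw [hqv, add_sub_cancel_left]; exact W.smul_mem _ hw
      · have : f w' = 0 := hf hw'
        rw [hqv, this, zero_smul, add_zero]
    have h2 := congrArg (fun g : SLn n F => g.1.mulVec v) (hx q hq)
    simp only [mv_mul, hqv, Matrix.mulVec_add, Matrix.mulVec_smul] at h2
    exact (add_left_cancel h2).symm
  obtain ⟨f0, hf0, hf0W⟩ := Submodule.exists_le_ker_of_lt_top W (lt_top_iff_ne_top.2 h1)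
  obtain ⟨v0, hv0⟩ : ∃ v0, f0 v0 = 1 := by
    obtain ⟨v, hv⟩ : ∃ v, f0 v ≠ 0 := by
      by_contra hcon
      push Not at hcon
      exact hf0 (LinearMap.ext hcon)
    exact ⟨(f0 v)⁻¹ • v, by rw [map_smul, smul_eq_mul, inv_mul_cancel₀ hv]⟩
  obtain ⟨c, hc⟩ : ∃ c, c = f0 (x.1.mulVec v0) := ⟨_, rfl⟩
  have hxw : ∀ w ∈ W, x.1.mulVec w = c • w := by
    intro w hw
    have h2 := key f0 hf0W w hw v0
    rw [hv0, one_smul, ← hc] at h2
    exact h2
  have hc0 : c ≠ 0 := by
    rintro rfl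
    have h2 := hxw w0 hw0
    rw [zero_smul] at h2
    have h3 := mv_inv x w0
    rw [h2, Matrix.mulVec_zero] at h3
    exact hw0' h3.symm
  have hxv : ∀ v, x.1.mulVec v - c • v ∈ W := by
    intro v
    by_contra hcon
    obtain ⟨f, hf, hfW⟩ := Submodule.exists_le_ker_of_notMem hcon
    apply hf
    have h2 := key f hfW w0 hw0 v
    rw [hxw w0 hw0, smul_smul, ← sub_eq_zero, ← sub_smul] at h2
    have h3 := (smul_eq_zero.1 h2).resolve_right hw0'
    rw [map_sub, map_smul, smul_eq_mul]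
    linear_combination -h3
  -- x = c + ψ
  let ψ : Matrix (Fin n) (Fin n) F := x.1 - c • 1
  have hψ : ∀ v, ψ.mulVec v = x.1.mulVec v - c • v := by
    intro v
    show (x.1 - c • 1).mulVec v = _
    rw [Matrix.sub_mulVec, Matrix.smul_mulVec, Matrix.one_mulVec]
  have hψ2 : ψ * ψ = 0 := by
    apply Matrix.ext_of_mulVec_single
    intro i
    rw [← Matrix.mulVec_mulVec, Matrix.zero_mulVec, hψ (ψ.mulVec _), hψ, hxw _ (hxv _), sub_self]
  have hpow : ∀ k : ℕ, x.1 ^ (k + 1) = c ^ (k + 1) • 1 + ((k + 1 : ℕ) * c ^ k : F) • ψ := by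
    intro k
    have hx1 : x.1 = c • 1 + ψ := by show _ = c • 1 + (x.1 - c • 1); abel
    induction k with
    | zero => simp [← hx1]
    | succ k ih =>
      rw [pow_succ, ih]
      conv_lhs => rw [hx1]
      rw [add_mul, mul_add, mul_add, Matrix.smul_mul, Matrix.smul_mul, Matrix.smul_mul, Matrix.smul_mul, hψ2, Matrix.one_mul, Matrix.one_mul, Matrix.mul_smul, Matrix.mul_one, smul_zero, add_zero, smul_smul, smul_smul]
      push_cast
      module
  obtain ⟨s, rfl⟩ : ∃ s, r = s + 1 := Nat.exists_eq_succ_of_ne_zero (fun h => hr (h ▸ dvd_zero p))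
  have h2 := hpow s
  have h3 : x.1 ^ (s + 1) = 1 := by
    have : (x ^ (s + 1) : SLn n F).1 = 1 := by rw [hxr]; rfl
    rw [← this]; exact (Matrix.SpecialLinearGroup.coe_pow _ _).symm
  rw [h3] at h2
  have hψw : ψ.mulVec w0 = 0 := by rw [hψ, hxw w0 hw0, sub_self]
  have h4 : c ^ (s + 1) = 1 := by
    have h5 := congrArg (fun A : Matrix (Fin n) (Fin n) F => A.mulVec w0) h2
    simp only [Matrix.one_mulVec, Matrix.add_mulVec, Matrix.smul_mulVec, hψw, smul_zero, add_zero] at h5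
    have h6 : (c ^ (s + 1) - 1) • w0 = 0 := by rw [sub_smul, one_smul, ← h5, sub_self]
    exact sub_eq_zero.1 ((smul_eq_zero.1 h6).resolve_right hw0')
  rw [h4, one_smul] at h2
  have h5 : (((s + 1 : ℕ) : F) * c ^ s) • ψ = 0 := (left_eq_add.1 h2)
  have h6 : (((s + 1 : ℕ) : F) * c ^ s) ≠ 0 := mul_ne_zero (fun h => hr ((CharP.cast_eq_zero_iff F p _).1 h)) (pow_ne_zero _ hc0)
  have h7 : ψ = 0 := (smul_eq_zero.1 h5).resolve_left h6
  have h8 : x.1 = c • 1 := sub_eq_zero.1 h7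
  rw [Subgroup.mem_center_iff]
  intro g
  apply Subtype.ext
  show g.1 * x.1 = x.1 * g.1
  rw [h8, Matrix.mul_smul, Matrix.smul_mul, Matrix.mul_one, Matrix.one_mul]

theorem sl_cen [Finite F] (p : ℕ) [hp : Fact p.Prime] [CharP F p] (n : ℕ) : Cen p (SLn n F) := by
  intro D hD hne hrad x hx hxp
  letI := Fintype.ofFinite F
  obtain ⟨k, V, hk, hmono, hbot, htop, hnorm, -⟩ := Cfsg.Agent.S2391.result p n D hD hne
  let i : Fin (k + 2) := ⟨1, by omega⟩
  have h0 : V i ≠ ⊥ := by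
    rw [← hbot]
    exact (hmono (show (0 : Fin (k + 2)) < i from by rw [Fin.lt_def]; simp [i])).ne'
  have h1 : V i ≠ ⊤ := by
    rw [← htop]
    exact (hmono (show i < Fin.last (k + 1) from by rw [Fin.lt_def]; simp [i]; omega)).ne
  have hNK : Subgroup.normalizer (D : Set (SLn n F)) ≤ KK (V i) := by
    intro g hg w
    have h2 := hnorm g hg i
    have h3 := hnorm g⁻¹ (inv_mem hg) i
    constructor
    · intro hw
      have h4 : (Matrix.mulVecLin ((g⁻¹ : SLn n F) : Matrix (Fin n) (Fin n) F)) (g.1.mulVec w) ∈ V i := by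
        rw [← h3]; exact ⟨_, hw, rfl⟩
      have h5 : (g⁻¹ : SLn n F).1.mulVec (g.1.mulVec w) ∈ V i := h4
      rwa [mv_inv] at h5
    · intro hw
      rw [← h2]
      exact ⟨w, hw, rfl⟩
  have hle := le_of_radical hD hrad hNK (QQ_p p (V i)) (KK_norm (V i))
  exact scalar_of_commute p h0 h1 (fun q hq => Subgroup.mem_centralizer_iff.1 hx q (hle hq)) hxp (pow_orderOf_eq_one x)

end Cfsg.Agent.LSt
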