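import Mathlib
import Cfsg.Agent.L.StC7
import Cfsg.Agent.L.StC8
import Cfsg.Agent.H5.LinBasic

set_option autoImplicit false

/-! Blocks of `SL_n(q)` in defining characteristic. -/

namespace Cfsg.Agent.LSt

open Cfsg Cfsg.Agent.H11

variable {F : Type*} [Field F] [Fintype F]

lemma sl_dvd (p : ℕ) [hp : Fact p.Prime] [CharP F p] (m : ℕ) (hm : 1 ≤ m) : p ∣ Nat.card (SL m F) := by
  haveI : Finite (SL m F) := inferInstance
  let j : Fin m := ⟨0, by omega⟩
  have h1 : xx (F := F) j 1 ≠ 1 := by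
    intro h
    have h2 := congrFun (congrFun (congrArg Subtype.val h) j.castSucc) j.succ
    rw [xx_apply] at h2
    have h3 : (1 : SL m F).1 j.castSucc j.succ = 0 := Matrix.one_apply_ne (cs_ne j)
    rw [h3] at h2
    simp [cs_ne j] at h2
  have h2 : p ∣ orderOf (xx (F := F) j 1) := by
    by_contra hcon
    exact h1 (pel_eq_one (UU_p p) (xx_U j 1) hcon)
  exact h2.trans (orderOf_dvd_natCard _)

lemma defect_zero_singleton {G : Type*} [Group G] [Finite G] {p : ℕ} [Fact p.Prime] {M : Ideal AlgInt} (hM : IsPModular p M) {χ : IrrCharacter G}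
    (h0 : ¬ p ∣ Nat.card G / charDegree (χ : G → ℂ)) : blockDefect p ({χ} : Set (IrrCharacter G)) = 0 := by
  haveI : Fintype G := Fintype.ofFinite _
  have hpr := hM.2.1.isPrime
  have hB0 := (Cfsg.Agent.S0914.result p M hM χ).1 h0
  have h1 := card_defect hM ⟨χ, hB0.symm⟩ (bot_defect hM h0)
  rw [Subgroup.card_bot] at h1
  by_contra h
  have := Nat.one_lt_pow h (Fact.out : p.Prime).one_lt
  omega

theorem sl_blocks {p : ℕ} [hp : Fact p.Prime] [CharP F p] {M : Ideal AlgInt} (hM : IsPModular p M) (m : ℕ) (hm : 1 ≤ m) :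
    Nat.card {B : Set (IrrCharacter (SL m F)) // IsPBlock M B ∧ blockDefect p B = 0} = 1 ∧
      ∀ B : Set (IrrCharacter (SL m F)), IsPBlock M B → blockDefect p B = 0 ∨ blockDefect p B = (Nat.card (SL m F)).factorization p := by
  classical
  haveI : Finite (SL m F) := inferInstance
  letI : Fintype (SL m F) := Fintype.ofFinite _
  have hpr := hM.2.1.isPrime
  obtain ⟨χ0, h0⟩ := sl_exists (F := F) p (m + 1)
  obtain ⟨P⟩ : Nonempty (Sylow p (SL m F)) := inferInstance
  have hcases := block_cases hM (sl_cen p (m + 1)) P (sl_unique hM m) h0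
  have hB0 := (Cfsg.Agent.S0914.result p M hM χ0).1 h0
  have hP : ∀ B : Set (IrrCharacter (SL m F)), IsPBlock M B → IsDefectGroup p M B (P : Subgroup (SL m F)) → blockDefect p B = (Nat.card (SL m F)).factorization p := by
    intro B hB hD
    have h1 := card_defect hM hB hD
    rw [P.card_eq_multiplicity] at h1
    exact (Nat.pow_right_injective (Fact.out : p.Prime).two_le h1).symm
  have hpos : 0 < (Nat.card (SL m F)).factorization p :=
    (Fact.out : p.Prime).factorization_pos_of_dvd Nat.card_pos.ne' (sl_dvd p m hm)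
  refine ⟨?_, ?_⟩
  · rw [Nat.card_eq_one_iff_unique]
    refine ⟨⟨fun a b => ?_⟩, ⟨⟨{χ0}, ⟨χ0, hB0.symm⟩, defect_zero_singleton hM h0⟩⟩⟩
    have key : ∀ B : Set (IrrCharacter (SL m F)), IsPBlock M B → blockDefect p B = 0 → B = {χ0} := by
      intro B hB hd
      rcases hcases B hB with h | h
      · exact h
      · have := hP B hB h
        omega
    apply Subtype.ext
    rw [key a.1 a.2.1 a.2.2, key b.1 b.2.1 b.2.2]
  · intro B hB
    rcases hcases B hB with h | h
    · left
      rw [h]; exact defect_zero_singleton hM h0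
    · right
      exact hP B hB h

theorem sl_card_blocks (p : ℕ) [hp : Fact p.Prime] {M : Ideal AlgInt} (hM : IsPModular p M) (m : ℕ) (hm : 1 ≤ m) :
    Nat.card {B : Set (IrrCharacter (SL m (ZMod p))) // IsPBlock M B} = Nat.gcd (m + 1) (p - 1) + 1 := by
  classical
  haveI : Finite (SL m (ZMod p)) := inferInstance
  rw [card_blocks hM (sl_cen (F := ZMod p) p (m + 1)) (sl_dvd p m hm) (sl_exists (F := ZMod p) p (m + 1)) (sl_unique hM m)]
  congr 1
  let e := Matrix.SpecialLinearGroup.center_equiv_rootsOfUnity' (R := ZMod p) (0 : Fin (m + 1))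
  have h1 : Nat.card (rootsOfUnity (Fintype.card (Fin (m + 1))) (ZMod p)) = Nat.gcd (m + 1) (p - 1) := by
    rw [Fintype.card_fin, Cfsg.Agent.H5.card_rootsOfUnity_eq_gcd (F := ZMod p) (m + 1), Nat.card_eq_fintype_card, ZMod.card]
  rw [← h1, ← Nat.card_congr e.toEquiv]
  apply Nat.card_congr
  refine ⟨fun z => ⟨z.1, z.2.1⟩, fun z => ⟨z.1, z.2, ?_⟩, fun _ => rfl, fun _ => rfl⟩
  intro hcon
  have h2 : orderOf z.1 = orderOf (e z) := by
    rw [MulEquiv.orderOf_eq e z, Subgroup.orderOf_coe]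
  have h3 : orderOf (e z) ∣ p - 1 := by
    have h4 : orderOf (e z) = orderOf ((e z : (ZMod p)ˣ)) := (Subgroup.orderOf_coe _).symm
    rw [h4]
    have h5 := orderOf_dvd_natCard ((e z : (ZMod p)ˣ))
    rwa [Nat.card_units, Nat.card_eq_fintype_card, ZMod.card] at h5
  rw [h2] at hcon
  have h4 := hcon.trans h3
  have h5 := (Nat.dvd_sub_iff_right hp.out.one_lt.le (dvd_refl p)).1 h4
  exact hp.out.one_lt.ne' (Nat.dvd_one.1 h5)

end Cfsg.Agent.LSt
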